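import Cfsg.Agent.SymBlocks.ConjDef
import Mathlib.Data.Nat.Factorization.Basic

/-!
# The hook product of an abacus configuration
-/

set_option autoImplicit false

open scoped Classical

namespace CfsgLib.SymBlocks.Abacus

open Finset

/-- The exponent of `p` in the product of the hook lengths of a configuration. -/
noncomputable def hookVal (p : ℕ) (s : Finset ℕ) : ℕ :=
  ∑ x ∈ s, ∑ y ∈ (range x).filter (fun y => y ∉ s), (x - y).factorization p

end CfsgLib.SymBlocks.Abacus
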