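import Cfsg.Agent.SymBlocks.Sort
import Cfsg.Agent.SymBlocks.Hook
import Mathlib.LinearAlgebra.Vandermonde
import Mathlib.RingTheory.Polynomial.Pochhammer
import Mathlib.GroupTheory.Perm.DomMulAct

/-!
# The degree formula in beta-numbers

* `col_one_mul_prod_factorial`: colourings with prescribed fibres form a multinomial;
* `chiB_one_mul_hookProd`: the hook length formula;
* `factorization_chiB_one`: its `p`-part.
-/

set_option autoImplicit false
set_option linter.style.haveILetI false
set_option linter.unusedSectionVars false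

open scoped Classical

namespace CfsgLib.SymBlocks

open Finset CfsgLib.Unipotent
open scoped Nat

universe u

/-- The product of the hook lengths. -/
noncomputable def hookProd (s : Finset ℕ) : ℕ :=
  ∏ x ∈ s, ∏ y ∈ (range x).filter (fun y => y ∉ s), (x - y)

theorem hookProd_ne_zero (s : Finset ℕ) : hookProd s ≠ 0 :=
  prod_ne_zero_iff.2 fun x _ => prod_ne_zero_iff.2 fun y hy => by
    have := mem_range.1 (mem_filter.1 hy).1
    omega

theorem factorization_hookProd (p : ℕ) (s : Finset ℕ) :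
    (hookProd s).factorization p = Abacus.hookVal p s := by
  have hne : ∀ x, ∀ y ∈ (range x).filter (fun y => y ∉ s), x - y ≠ 0 := fun x y hy => by
    have := mem_range.1 (mem_filter.1 hy).1
    omega
  rw [hookProd, Abacus.hookVal, Nat.factorization_prod fun x _ => prod_ne_zero_iff.2 (hne x),
    Finsupp.finsetSum_apply]
  refine sum_congr rfl fun x _ => ?_
  rw [Nat.factorization_prod (hne x), Finsupp.finsetSum_apply]

variable {X : Type u} [Fintype X] {N : ℕ}

theorem col_one_mul_prod_factorial (α : Fin N → ℕ) (hα : ∑ i, α i = Fintype.card X) :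
    col (1 : Equiv.Perm X) (fun i => (α i : ℤ)) * ∏ i, (((α i)! : ℕ) : ℤ) =
      (((Fintype.card X)! : ℕ) : ℤ) := by
  set C := Colouring X (fun i => (α i : ℤ))
  let e : X ≃ Σ i : Fin N, Fin (α i) :=
    Fintype.equivOfCardEq (by rw [Fintype.card_sigma, ← hα]; simp)
  let f₀ : C := ⟨fun x => (e x).1, fun i => by
    have h : Nat.card {x // (e x).1 = i} = α i := by
      rw [← Nat.card_fin (α i)]
      exact Nat.card_congr ((e.subtypeEquiv (q := fun y => y.1 = i) fun x => Iff.rfl).trans
        (Equiv.sigmaSubtype i))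
    show (Nat.card {x // (e x).1 = i} : ℤ) = (α i : ℤ)
    rw [h]⟩
  have htrans : MulAction.orbit (Equiv.Perm X) f₀ = Set.univ := by
    refine Set.eq_univ_of_forall fun f => ?_
    have h' : ∀ i, Nat.card {x // f₀.1 x = i} = Nat.card {x // f.1 x = i} := fun i =>
      Nat.cast_injective (R := ℤ) ((f₀.2 i).trans (f.2 i).symm)
    obtain ⟨σ, hσ⟩ := exists_perm_comp h'
    refine ⟨σ, Subtype.ext (funext fun x => ?_)⟩
    show f₀.1 (σ⁻¹ x) = f.1 x
    simpa using (hσ (σ⁻¹ x)).symm
  have hcol : col (1 : Equiv.Perm X) (fun i => (α i : ℤ)) = (Nat.card C : ℤ) := by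
    rw [col_eq_card_fixedBy, MulAction.fixedBy_one_eq_univ, Nat.card_congr (Equiv.Set.univ C)]
  have hstab : Nat.card (MulAction.stabilizer (Equiv.Perm X) f₀) = ∏ i, (α i)! := by
    have h1 : Nat.card {g : Equiv.Perm X // f₀.1 ∘ g = f₀.1} = ∏ i, (α i)! := by
      rw [Nat.card_eq_fintype_card, DomMulAct.stabilizer_card]
      refine prod_congr rfl fun i _ => ?_
      rw [← Nat.card_eq_fintype_card, show Nat.card {x // f₀.1 x = i} = α i from
        Nat.cast_injective (R := ℤ) (f₀.2 i)]
    rw [← h1]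
    refine Nat.card_congr ((Equiv.refl _).subtypeEquiv fun g => ?_)
    show g • f₀ = f₀ ↔ f₀.1 ∘ g = f₀.1
    refine Iff.trans ⟨fun h => congrArg Subtype.val h, fun h => Subtype.ext h⟩ ?_
    change (fun x => f₀.1 (g⁻¹ x)) = f₀.1 ↔ _
    constructor
    · intro h
      funext x
      have h2 := congrFun h (g x)
      simp only [Equiv.Perm.coe_inv, Equiv.symm_apply_apply] at h2
      exact h2.symm
    · intro h
      funext x
      have h2 := congrFun h (g⁻¹ x)
      simp only [Function.comp_apply, Equiv.Perm.coe_inv, Equiv.apply_symm_apply] at h2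
      exact h2.symm
  have key : Nat.card C * ∏ i, (α i)! = (Fintype.card X)! := by
    have h := Nat.card_congr (MulAction.orbitProdStabilizerEquivGroup (Equiv.Perm X) f₀)
    rw [Nat.card_prod, htrans, Nat.card_congr (Equiv.Set.univ C), hstab, Nat.card_perm,
      Nat.card_eq_fintype_card (α := X)] at h
    exact h
  rw [hcol]
  exact_mod_cast key

/-- One term of the alternating sum. -/
theorem col_one_sub_mul_prod_factorial (b : Fin N → ℕ) (w : Equiv.Perm (Fin N))
    (hb : ∑ i, b i = Fintype.card X + ∑ i : Fin N, (i : ℕ)) :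
    col (1 : Equiv.Perm X) (fun i => (b i : ℤ) - ((w i : ℕ) : ℤ)) * ∏ i, (((b i)! : ℕ) : ℤ) =
      (((Fintype.card X)! : ℕ) : ℤ) * ∏ i, (((b i).descFactorial (w i : ℕ) : ℕ) : ℤ) := by
  by_cases hle : ∀ i, (w i : ℕ) ≤ b i
  · have hsum : ∑ i, (b i - (w i : ℕ)) = Fintype.card X := by
      rw [sum_tsub_distrib _ fun i _ => hle i, Equiv.sum_comp w (fun i : Fin N => (i : ℕ)), hb]
      omega
    have h := col_one_mul_prod_factorial (X := X) _ hsum
    rw [show (fun i => (b i : ℤ) - ((w i : ℕ) : ℤ)) = fun i => ((b i - (w i : ℕ) : ℕ) : ℤ) from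
        funext fun i => (Nat.cast_sub (hle i)).symm,
      ← h, mul_assoc]
    congr 1
    rw [← prod_mul_distrib]
    refine prod_congr rfl fun i _ => ?_
    exact_mod_cast (Nat.factorial_mul_descFactorial (hle i)).symm
  · push Not at hle
    obtain ⟨i, hi⟩ := hle
    rw [col_eq_zero_of_neg (i := i) (by omega), zero_mul,
      prod_eq_zero (mem_univ i) (by exact_mod_cast Nat.descFactorial_eq_zero_iff_lt.2 hi), mul_zero]

theorem chiB_one_mul_prod_factorial (b : Fin N → ℕ)
    (hb : ∑ i, b i = Fintype.card X + ∑ i : Fin N, (i : ℕ)) :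
    chiB (1 : Equiv.Perm X) (fun i => (b i : ℤ)) * ∏ i, (((b i)! : ℕ) : ℤ) =
      (((Fintype.card X)! : ℕ) : ℤ) * ∏ i, ∏ j ∈ Ioi i, ((b j : ℤ) - b i) := by
  rw [chiB, sum_mul]
  simp only [mul_assoc, col_one_sub_mul_prod_factorial b _ hb]
  simp only [← mul_assoc, mul_comm _ (((Fintype.card X)! : ℕ) : ℤ)]
  simp only [mul_assoc, ← mul_sum]
  congr 1
  rw [← Matrix.det_vandermonde,
    Matrix.det_eval_matrixOfPolynomials_eq_det_vandermonde (fun i => (b i : ℤ))
      (fun j : Fin N => descPochhammer ℤ (j : ℕ)) (fun j => descPochhammer_natDegree ℤ _)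
      (fun j => monic_descPochhammer ℤ _),
    ← Matrix.det_transpose, Matrix.det_apply']
  refine sum_congr rfl fun w _ => ?_
  congr 1
  refine prod_congr rfl fun i _ => ?_
  simp only [Matrix.transpose_apply, Matrix.of_apply]
  exact (descPochhammer_eval_eq_descFactorial ℤ _ _).symm

/-- Splitting the factorials along the configuration. -/
theorem prod_factorial_eq (b : Fin N → ℕ) (hb : StrictMono b) :
    ∏ i, (((b i)! : ℕ) : ℤ) =
      (∏ i, ∏ j ∈ Ioi i, ((b j : ℤ) - b i)) * (hookProd (univ.image b) : ℤ) := by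
  set s := univ.image b with hs
  have h1 : ∀ j, ((((b j)! : ℕ) : ℤ)) = (∏ i ∈ Iio j, ((b j : ℤ) - b i)) *
      ((∏ y ∈ (range (b j)).filter (fun y => y ∉ s), (b j - y) : ℕ) : ℤ) := by
    intro j
    have hf : (range (b j)).filter (fun y => y ∈ s) = (Iio j).image b := by
      ext y
      simp only [mem_filter, mem_range, hs, mem_image, mem_univ, true_and, mem_Iio]
      constructor
      · rintro ⟨h, i, rfl⟩
        exact ⟨i, hb.lt_iff_lt.1 h, rfl⟩
      · rintro ⟨i, hi, rfl⟩
        exact ⟨hb hi, i, rfl⟩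
    rw [← Nat.descFactorial_self, Nat.descFactorial_eq_prod_range,
      ← prod_filter_mul_prod_filter_not (range (b j)) (fun y => y ∈ s), hf,
      prod_image fun x _ y _ h => hb.injective h, Nat.cast_mul, Nat.cast_prod]
    congr 1
    exact prod_congr rfl fun i hi => Nat.cast_sub (hb (mem_Iio.1 hi)).le
  have h2 : ∀ i j : Fin N, (i ∈ univ ∧ j ∈ Ioi i) ↔ (i ∈ Iio j ∧ j ∈ univ) := fun i j => by simp
  rw [prod_congr rfl fun j _ => h1 j, prod_mul_distrib, prod_comm' h2]
  congr 1
  rw [hookProd, Nat.cast_prod, prod_image fun x _ y _ h => hb.injective h]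

theorem chiB_one_mul_hookProd {β : Fin N → ℤ} (hβ : IsBeta X β) :
    (chiB (1 : Equiv.Perm X) β).toNat * hookProd (toSet β) = (Fintype.card X)! := by
  obtain ⟨b, rfl⟩ : ∃ b : Fin N → ℕ, β = fun i => (b i : ℤ) :=
    ⟨fun i => (β i).toNat, funext fun i => (Int.toNat_of_nonneg (hβ.nonneg i)).symm⟩
  have hmono : StrictMono b := fun i j h => Int.ofNat_lt.1 (hβ.mono h)
  have hsum : ∑ i, b i = Fintype.card X + ∑ i : Fin N, (i : ℕ) := by exact_mod_cast hβ.sum_eq
  have htoSet : toSet (fun i => (b i : ℤ)) = univ.image b := by simp [toSet]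
  have hD : ∏ i, ∏ j ∈ Ioi i, ((b j : ℤ) - b i) ≠ 0 :=
    prod_ne_zero_iff.2 fun i _ => prod_ne_zero_iff.2 fun j hj => by
      have := hmono (mem_Ioi.1 hj)
      omega
  have h := chiB_one_mul_prod_factorial b hsum
  rw [prod_factorial_eq b hmono] at h
  have h' : chiB (1 : Equiv.Perm X) (fun i => (b i : ℤ)) * (hookProd (univ.image b) : ℤ) =
      (((Fintype.card X)! : ℕ) : ℤ) := by
    refine mul_left_cancel₀ hD ?_
    rw [mul_comm (∏ i, ∏ j ∈ Ioi i, ((b j : ℤ) - b i)) (((Fintype.card X)! : ℕ) : ℤ), ← h]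
    ring
  have hpos := chiB_one_pos hβ
  rw [htoSet]
  have h'' : (((chiB (1 : Equiv.Perm X) (fun i => (b i : ℤ))).toNat * hookProd (univ.image b) : ℕ) : ℤ) =
      (((Fintype.card X)! : ℕ) : ℤ) := by
    rw [Nat.cast_mul, Int.toNat_of_nonneg hpos.le]
    exact h'
  exact_mod_cast h''

/-- The `p`-part of a degree. -/
theorem factorization_chiB_one {p : ℕ} [Fact p.Prime] {β : Fin N → ℤ} (hβ : IsBeta X β) :
    (chiB (1 : Equiv.Perm X) β).toNat.factorization p + Abacus.hookVal p (toSet β) =
      ((Fintype.card X)!).factorization p := by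
  have h := chiB_one_mul_hookProd hβ
  have h0 : (chiB (1 : Equiv.Perm X) β).toNat ≠ 0 := by
    have := chiB_one_pos hβ
    omega
  rw [← h, Nat.factorization_mul h0 (hookProd_ne_zero _), Finsupp.add_apply,
    factorization_hookProd]

end CfsgLib.SymBlocks
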