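import Cfsg.Agent.SymBlocks.Hook
import Cfsg.Agent.SymBlocks.SymCount
import Mathlib.Data.Nat.Choose.Factorization

/-!
# Abacus configurations of prescribed hook exponent

The exponent of `p` in the hook product of a configuration of weight `w` is `w` plus the exponents
of the distances on the runners.  We exhibit configurations realising the largest value and the
value one below it.
-/

set_option autoImplicit false
set_option linter.style.haveILetI false

open scoped Classical

namespace CfsgLib.SymBlocks.Abacus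

open Finset

variable {p : ℕ}

/-- The positions of the entries on runner `r`. -/
noncomputable def pos (p : ℕ) (s : Finset ℕ) (r : ℕ) : Finset ℕ :=
  (runner p s r).image fun x => x / p

/-- The sum of `f` over the distances between an entry and a vacancy below it. -/
noncomputable def gapSum (f : ℕ → ℕ) (A : Finset ℕ) : ℕ :=
  ∑ k ∈ A, ∑ j ∈ range k \ A, f (k - j)

theorem mem_pos (hp : 0 < p) {s : Finset ℕ} {r k : ℕ} (hr : r < p) :
    k ∈ pos p s r ↔ r + p * k ∈ s := by
  simp only [pos, runner, mem_image, mem_filter]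
  constructor
  · rintro ⟨x, ⟨hx, hxr⟩, rfl⟩
    rwa [← hxr, Nat.mod_add_div]
  · intro h
    refine ⟨r + p * k, ⟨h, by simp [Nat.mod_eq_of_lt hr]⟩, ?_⟩
    rw [Nat.add_mul_div_left _ _ hp, Nat.div_eq_of_lt hr, zero_add]

theorem runner_eq_image_pos (hp : 0 < p) {s : Finset ℕ} {r : ℕ} (hr : r < p) :
    runner p s r = (pos p s r).image fun k => r + p * k := by
  ext x
  constructor
  · intro hx
    obtain ⟨hxs, hxr⟩ := mem_filter.1 hx
    refine mem_image.2 ⟨x / p, mem_image.2 ⟨x, hx, rfl⟩, ?_⟩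
    rw [← hxr]; exact Nat.mod_add_div x p
  · intro hx
    obtain ⟨k, hk, rfl⟩ := mem_image.1 hx
    exact mem_filter.2 ⟨(mem_pos hp hr).1 hk, by simp [Nat.mod_eq_of_lt hr]⟩

theorem card_pos (hp : 0 < p) {s : Finset ℕ} {r : ℕ} (hr : r < p) :
    (pos p s r).card = (runner p s r).card := by
  rw [runner_eq_image_pos hp hr, card_image_of_injective]
  exact fun a b e => Nat.eq_of_mul_eq_mul_left hp (Nat.add_left_cancel e)

theorem eq_of_pos_eq (hp : 0 < p) {s t : Finset ℕ}
    (h : ∀ r < p, pos p s r = pos p t r) : s = t := by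
  rw [eq_biUnion_runner hp s, eq_biUnion_runner hp t]
  refine Finset.biUnion_congr rfl fun r hr => ?_
  rw [runner_eq_image_pos hp (mem_range.1 hr), runner_eq_image_pos hp (mem_range.1 hr),
    h r (mem_range.1 hr)]

theorem sum_eq_sum_pos (hp : 0 < p) (s : Finset ℕ) (g : ℕ → ℕ) :
    ∑ x ∈ s, g x = ∑ r ∈ range p, ∑ k ∈ pos p s r, g (r + p * k) := by
  conv_lhs => rw [eq_biUnion_runner hp s]
  rw [sum_biUnion (fun a _ b _ hab => disjoint_left.2 fun x hxa hxb =>
    hab ((mem_filter.1 hxa).2.symm.trans (mem_filter.1 hxb).2))]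
  refine sum_congr rfl fun r hr => ?_
  rw [runner_eq_image_pos hp (mem_range.1 hr),
    sum_image fun a _ b _ e => Nat.eq_of_mul_eq_mul_left hp (Nat.add_left_cancel e)]

theorem hookVal_eq_gapSum [hp : Fact p.Prime] (s : Finset ℕ) :
    hookVal p s = ∑ r ∈ range p, gapSum (fun d => 1 + d.factorization p) (pos p s r) := by
  have hp0 : 0 < p := hp.out.pos
  rw [hookVal, sum_eq_sum_pos hp0 s]
  refine sum_congr rfl fun r hr => sum_congr rfl fun k hk => ?_
  rw [mem_range] at hr
  have hinj : Set.InjOn (fun j => r + p * j) ↑(range k \ pos p s r) := fun a _ b _ e =>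
    Nat.eq_of_mul_eq_mul_left hp0 (Nat.add_left_cancel e)
  refine (sum_subset (s₁ := (range k \ pos p s r).image fun j => r + p * j) ?_ ?_).symm.trans ?_
  · intro y hy
    obtain ⟨j, hj, rfl⟩ := mem_image.1 hy
    rw [mem_sdiff, mem_range, mem_pos hp0 hr] at hj
    exact mem_filter.2 ⟨mem_range.2
      (Nat.add_lt_add_left (Nat.mul_lt_mul_of_pos_left hj.1 hp0) r), hj.2⟩
  · intro y hy hy'
    rw [mem_filter, mem_range] at hy
    refine Nat.factorization_eq_zero_of_not_dvd fun hd => hy' (mem_image.2 ⟨y / p, ?_, ?_⟩)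
    all_goals
      have h1 : y % p = r := by
        have := (Nat.modEq_iff_dvd' hy.1.le).2 hd
        rw [Nat.ModEq] at this
        rwa [Nat.add_mul_mod_self_left, Nat.mod_eq_of_lt hr] at this
      have h2 : r + p * (y / p) = y := by rw [← h1, Nat.mod_add_div]
    · rw [mem_sdiff, mem_range, mem_pos hp0 hr, h2]
      refine ⟨Nat.lt_of_mul_lt_mul_left (a := p) ?_, hy.2⟩
      omega
    · exact h2
  · rw [sum_image hinj]
    refine sum_congr rfl fun j hj => ?_
    rw [mem_sdiff, mem_range] at hj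
    rw [show r + p * k - (r + p * j) = p * (k - j) by rw [Nat.mul_sub]; omega,
      Nat.factorization_mul hp0.ne' (by omega), Finsupp.add_apply, hp.out.factorization_self]

theorem gapSum_insert (f : ℕ → ℕ) {A : Finset ℕ} {a : ℕ} (h : A ⊆ range a) :
    gapSum f (insert a A) = (∑ j ∈ range a \ A, f (a - j)) + gapSum f A := by
  have ha : a ∉ A := fun c => by simpa using h c
  rw [gapSum, sum_insert ha, gapSum]
  have e : ∀ k ≤ a, range k \ insert a A = range k \ A := by
    intro k hk
    ext j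
    simp only [mem_sdiff, mem_range, mem_insert, not_or]
    exact ⟨fun h => ⟨h.1, h.2.2⟩, fun h => ⟨h.1, by omega, h.2⟩⟩
  rw [e a le_rfl]
  congr 1
  exact sum_congr rfl fun k hk => by rw [e k (mem_range.1 (h hk)).le]

theorem gapSum_range (f : ℕ → ℕ) (n : ℕ) : gapSum f (range n) = 0 := by
  refine sum_eq_zero fun k hk => ?_
  rw [sdiff_eq_empty_iff_subset.2 (range_mono (mem_range.1 hk).le), sum_empty]

theorem gapSum_add (f g : ℕ → ℕ) (A : Finset ℕ) :
    gapSum (fun d => f d + g d) A = gapSum f A + gapSum g A := by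
  simp [gapSum, sum_add_distrib]

/-- The number of pairs entry–vacancy measures the displacement. -/
theorem gapSum_one (A : Finset ℕ) :
    gapSum (fun _ => 1) A + ∑ i ∈ range A.card, i = ∑ k ∈ A, k := by
  induction A using Finset.induction_on_max with
  | empty => simp [gapSum]
  | insert a A hA ih =>
    have ha : a ∉ A := fun c => lt_irrefl a (hA a c)
    have hsub : A ⊆ range a := fun x hx => mem_range.2 (hA x hx)
    rw [gapSum_insert _ hsub, card_insert_of_notMem ha, sum_range_succ, sum_insert ha]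
    simp only [sum_const, smul_eq_mul, mul_one, card_sdiff_of_subset hsub, card_range]
    have := card_le_card hsub
    rw [card_range] at this
    omega

/-- The weight is the number of pairs entry–vacancy on the runners. -/
theorem sum_eq_coreSum_add_gapSum (hp : 0 < p) {K : ℕ → ℕ} {s : Finset ℕ} (hs : HasKey p K s) :
    ∑ x ∈ s, x = coreSum p K + p * ∑ r ∈ range p, gapSum (fun _ => 1) (pos p s r) := by
  rw [sum_eq_sum_pos hp s (fun x => x), coreSum, mul_sum, ← sum_add_distrib]
  refine sum_congr rfl fun r hr => ?_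
  rw [mem_range] at hr
  have hc : (pos p s r).card = K r := by rw [card_pos hp hr, hs r hr]
  rw [sum_add_distrib, sum_add_distrib, sum_const, sum_const, ← mul_sum, ← mul_sum, hc, card_range,
    ← gapSum_one (pos p s r), hc]
  ring

theorem weight_eq_gapSum (hp : 0 < p) {K : ℕ → ℕ} {s : Finset ℕ} {w : ℕ} (hs : HasKey p K s)
    (hsum : ∑ x ∈ s, x = coreSum p K + p * w) :
    ∑ r ∈ range p, gapSum (fun _ => 1) (pos p s r) = w :=
  Nat.eq_of_mul_eq_mul_left hp
    (Nat.add_left_cancel ((sum_eq_coreSum_add_gapSum hp hs).symm.trans hsum))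

theorem hookVal_eq_add [hp : Fact p.Prime] {K : ℕ → ℕ} {s : Finset ℕ} {w : ℕ} (hs : HasKey p K s)
    (hsum : ∑ x ∈ s, x = coreSum p K + p * w) :
    hookVal p s = w + ∑ r ∈ range p, gapSum (fun d => d.factorization p) (pos p s r) := by
  rw [hookVal_eq_gapSum, ← weight_eq_gapSum hp.out.pos hs hsum, ← sum_add_distrib]
  exact sum_congr rfl fun r _ => gapSum_add _ _ _

/-- A distance is at most the number of pairs. -/
theorem dist_le_gapSum {A : Finset ℕ} {k j : ℕ} (hk : k ∈ A) (hj : j ∈ range k \ A) :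
    k - j ≤ gapSum (fun _ => 1) A := by
  rw [mem_sdiff, mem_range] at hj
  simp only [gapSum, sum_const, smul_eq_mul, mul_one]
  rw [← add_sum_erase A _ hk]
  have h1 : (Ico j k).filter (fun i => i ∉ A) ⊆ range k \ A := fun i hi => by
    rw [mem_filter, mem_Ico] at hi
    exact mem_sdiff.2 ⟨mem_range.2 hi.1.2, hi.2⟩
  have h2 : ((Ico j k).filter (fun i => i ∈ A)).card ≤
      ∑ i ∈ A.erase k, (range i \ A).card := by
    refine le_trans ?_ (sum_le_sum_of_subset (s := (Ico j k).filter (fun i => i ∈ A)) fun i hi => ?_)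
    · rw [card_eq_sum_ones]
      refine sum_le_sum fun i hi => Finset.card_pos.2 ⟨j, mem_sdiff.2 ⟨mem_range.2 ?_, hj.2⟩⟩
      rw [mem_filter, mem_Ico] at hi
      rcases Nat.lt_or_eq_of_le hi.1.1 with h | h
      · exact h
      · exact absurd (h ▸ hi.2) hj.2
    · rw [mem_filter, mem_Ico] at hi
      exact mem_erase.2 ⟨by omega, hi.2⟩
  have h3 := card_le_card h1
  have h4 := card_filter_add_card_filter_not (s := Ico j k) (fun i => i ∈ A)
  rw [Nat.card_Ico] at h4
  omega

theorem gapSum_eq_zero_of_lt {A : Finset ℕ} (f : ℕ → ℕ)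
    (hf : ∀ d, d ≤ gapSum (fun _ => 1) A → f d = 0) : gapSum f A = 0 :=
  sum_eq_zero fun _ hk => sum_eq_zero fun _ hj => hf _ (dist_le_gapSum hk hj)

/-- Small weight: the hook exponent is the weight. -/
theorem hookVal_eq_weight [hp : Fact p.Prime] {K : ℕ → ℕ} {s : Finset ℕ} {w : ℕ}
    (hs : HasKey p K s) (hsum : ∑ x ∈ s, x = coreSum p K + p * w) (hw : w < p) :
    hookVal p s = w := by
  have hW := weight_eq_gapSum hp.out.pos hs hsum
  rw [hookVal_eq_add hs hsum, sum_eq_zero (s := range p), add_zero]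
  intro r hr
  refine gapSum_eq_zero_of_lt _ fun d hd => ?_
  rcases Nat.eq_zero_or_pos d with rfl | hd0
  · simp
  refine Nat.factorization_eq_zero_of_not_dvd fun c => ?_
  have h1 := Nat.le_of_dvd hd0 c
  have h2 := single_le_sum (f := fun r => gapSum (fun _ => 1) (pos p s r))
    (fun _ _ => Nat.zero_le _) hr
  omega

/-- The hook exponent is at least the weight. -/
theorem le_hookVal [hp : Fact p.Prime] {K : ℕ → ℕ} {s : Finset ℕ} {w : ℕ} (hs : HasKey p K s)
    (hsum : ∑ x ∈ s, x = coreSum p K + p * w) : w ≤ hookVal p s := by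
  rw [hookVal_eq_add hs hsum]
  exact Nat.le_add_right _ _

theorem eq_range_of_gapSum_eq_zero {A : Finset ℕ} (h : gapSum (fun _ => 1) A = 0) :
    A = range A.card := by
  induction A using Finset.induction_on_max with
  | empty => simp
  | insert a A hA ih =>
    have ha : a ∉ A := fun c => lt_irrefl a (hA a c)
    have hsub : A ⊆ range a := fun x hx => mem_range.2 (hA x hx)
    rw [gapSum_insert _ hsub] at h
    simp only [sum_const, smul_eq_mul, mul_one, Nat.add_eq_zero_iff, card_eq_zero,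
      sdiff_eq_empty_iff_subset] at h
    obtain rfl : A = range a := Subset.antisymm hsub h.1
    rw [card_insert_of_notMem ha, card_range, range_add_one]

/-- A single pair: the top entry is raised by one. -/
theorem eq_of_gapSum_eq_one {A : Finset ℕ} (h : gapSum (fun _ => 1) A = 1) :
    A = insert A.card (range (A.card - 1)) := by
  induction A using Finset.induction_on_max with
  | empty => simp [gapSum] at h
  | insert a A hA ih =>
    have ha : a ∉ A := fun c => lt_irrefl a (hA a c)
    have hsub : A ⊆ range a := fun x hx => mem_range.2 (hA x hx)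
    rw [gapSum_insert _ hsub] at h
    simp only [sum_const, smul_eq_mul, mul_one, card_sdiff_of_subset hsub, card_range] at h
    have hle := card_le_card hsub
    rw [card_range] at hle
    by_cases h0 : a = A.card
    · obtain rfl : A = range a := eq_of_subset_of_card_le hsub (by rw [card_range, h0])
      rw [gapSum_range] at h
      omega
    · have h1 := eq_range_of_gapSum_eq_zero (A := A) (by omega)
      rw [card_insert_of_notMem ha, show a = A.card + 1 by omega, Nat.add_sub_cancel, ← h1]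

/-- Weight two on two runners with the smallest hook exponent determines the configuration. -/
theorem eq_of_hookVal_two {K : ℕ → ℕ} {s t : Finset ℕ} (hs : HasKey 2 K s) (ht : HasKey 2 K t)
    (hs' : ∑ x ∈ s, x = coreSum 2 K + 2 * 2) (ht' : ∑ x ∈ t, x = coreSum 2 K + 2 * 2)
    (h : hookVal 2 s = 2) (h' : hookVal 2 t = 2) : s = t := by
  haveI : Fact (Nat.Prime 2) := ⟨Nat.prime_two⟩
  suffices key : ∀ u : Finset ℕ, HasKey 2 K u → ∑ x ∈ u, x = coreSum 2 K + 2 * 2 →
      hookVal 2 u = 2 → ∀ r < 2, pos 2 u r = insert (K r) (range (K r - 1)) from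
    eq_of_pos_eq two_pos fun r hr => (key s hs hs' h r hr).trans (key t ht ht' h' r hr).symm
  intro u hu hu' hv r hr
  have hW := weight_eq_gapSum two_pos hu hu'
  rw [hookVal_eq_add hu hu', sum_range_succ, sum_range_one] at hv
  replace hW : gapSum (fun _ => 1) (pos 2 u 0) + gapSum (fun _ => 1) (pos 2 u 1) = 2 :=
    ((sum_range_succ (fun r => gapSum (fun _ => 1) (pos 2 u r)) 1).trans
      (congrArg (· + gapSum (fun _ => 1) (pos 2 u 1)) (sum_range_one _))).symm.trans hW
  have one : ∀ A : Finset ℕ, gapSum (fun d => d.factorization 2) A = 0 →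
      gapSum (fun _ => 1) A ≤ 2 → gapSum (fun _ => 1) A ≤ 1 := by
    intro A h0 h2
    have hd : ∀ k ∈ A, ∀ j ∈ range k \ A, j + 1 = k := by
      intro k hk j hj
      have h1 := dist_le_gapSum hk hj
      have h3 : (k - j).factorization 2 = 0 := by
        simp only [gapSum, sum_eq_zero_iff] at h0
        exact h0 k hk j hj
      have hjk := mem_range.1 (mem_sdiff.1 hj).1
      by_contra hne
      rw [show k - j = 2 by omega, Nat.prime_two.factorization_self] at h3
      omega
    simp only [gapSum, sum_const, smul_eq_mul, mul_one]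
    rw [← card_sigma]
    refine card_le_one.2 fun x hx y hy => ?_
    obtain ⟨k, j⟩ := x
    obtain ⟨k', j'⟩ := y
    rw [mem_sigma] at hx hy
    simp only at hx hy
    have e := hd k hx.1 j hx.2
    have e' := hd k' hy.1 j' hy.2
    have hj := mem_range.1 (mem_sdiff.1 hx.2).1
    have hj' := mem_range.1 (mem_sdiff.1 hy.2).1
    obtain rfl : k = k' := by
      rcases lt_trichotomy k k' with hlt | he | hlt
      · have := hd k' hy.1 j (mem_sdiff.2 ⟨mem_range.2 (by omega), (mem_sdiff.1 hx.2).2⟩)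
        omega
      · exact he
      · have := hd k hx.1 j' (mem_sdiff.2 ⟨mem_range.2 (by omega), (mem_sdiff.1 hy.2).2⟩)
        omega
    obtain rfl : j = j' := by omega
    rfl
  have a0 := one (pos 2 u 0) (by omega) (by omega)
  have a1 := one (pos 2 u 1) (by omega) (by omega)
  have hr1 : gapSum (fun _ => 1) (pos 2 u r) = 1 := by interval_cases r <;> omega
  have e := eq_of_gapSum_eq_one hr1
  rwa [card_pos two_pos hr, hu r hr] at e

/-- The top entry raised by `a`. -/
def row1 (c a : ℕ) : Finset ℕ := insert (c - 1 + a) (range (c - 1))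

/-- The top two entries raised by `a` and `b`. -/
def row2 (c a b : ℕ) : Finset ℕ := insert (c - 1 + a) (insert (c - 2 + b) (range (c - 2)))

theorem sum_Ico_dist (f : ℕ → ℕ) (n : ℕ) :
    ∀ a, ∑ j ∈ Ico n (n + a), f (n + a - j) = ∑ i ∈ range a, f (i + 1) := by
  intro a
  rw [sum_Ico_eq_sum_range, Nat.add_sub_cancel_left, ← sum_range_reflect (fun i => f (i + 1))]
  refine sum_congr rfl fun i hi => ?_
  rw [mem_range] at hi
  congr 1
  omega

theorem sum_factorization_succ (p a : ℕ) :
    ∑ i ∈ range a, (i + 1).factorization p = (a.factorial).factorization p := by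
  induction a with
  | zero => simp
  | succ a ih =>
    rw [sum_range_succ, ih, Nat.factorial_succ,
      Nat.factorization_mul a.succ_ne_zero a.factorial_ne_zero, Finsupp.add_apply, add_comm]

theorem card_row1 {c : ℕ} (hc : 1 ≤ c) (a : ℕ) : (row1 c a).card = c := by
  rw [row1, card_insert_of_notMem (by simp), card_range]
  omega

theorem gapSum_row1 (f : ℕ → ℕ) (c a : ℕ) :
    gapSum f (row1 c a) = ∑ i ∈ range a, f (i + 1) := by
  rw [row1, gapSum_insert _ (range_mono (by omega)), gapSum_range, add_zero,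
    ← sum_Ico_dist f (c - 1) a]
  refine sum_congr ?_ fun _ _ => rfl
  ext j; simp; omega

theorem card_row2 {c a b : ℕ} (hc : 2 ≤ c) (hb : b ≤ a) : (row2 c a b).card = c := by
  rw [row2, card_insert_of_notMem (by simp; omega), card_insert_of_notMem (by simp), card_range]
  omega

theorem gapSum_row2 (f : ℕ → ℕ) {c a b : ℕ} (hc : 2 ≤ c) (hb : b ≤ a) :
    gapSum f (row2 c a b) + f (a + 1 - b) =
      ∑ i ∈ range b, f (i + 1) + ∑ i ∈ range (a + 1), f (i + 1) := by
  have hsub : insert (c - 2 + b) (range (c - 2)) ⊆ range (c - 1 + a) :=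
    insert_subset (mem_range.2 (by omega)) (range_mono (by omega))
  rw [row2, gapSum_insert _ hsub, gapSum_insert _ (range_mono (by omega)), gapSum_range, add_zero,
    ← sum_Ico_dist f (c - 2) b, ← sum_Ico_dist f (c - 2) (a + 1),
    ← add_sum_erase (Ico (c - 2) (c - 2 + (a + 1))) _ (mem_Ico.2 ⟨Nat.le_add_right _ b, by omega⟩)]
  have e1 : range (c - 2 + b) \ range (c - 2) = Ico (c - 2) (c - 2 + b) := by
    ext j; simp; omega
  have e2 : range (c - 1 + a) \ insert (c - 2 + b) (range (c - 2)) =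
      (Ico (c - 2) (c - 2 + (a + 1))).erase (c - 2 + b) := by
    ext j; simp; omega
  rw [e1, e2, show c - 2 + (a + 1) - (c - 2 + b) = a + 1 - b by omega,
    show c - 1 + a = c - 2 + (a + 1) by omega]
  ring

/-- A configuration with prescribed runners. -/
theorem exists_of_pos [hp : Fact p.Prime] {K : ℕ → ℕ} (A : ℕ → Finset ℕ)
    (hA : ∀ r < p, (A r).card = K r) {w : ℕ}
    (hw : ∑ r ∈ range p, gapSum (fun _ => 1) (A r) = w) :
    ∃ s, HasKey p K s ∧ ∑ x ∈ s, x = coreSum p K + p * w ∧
      hookVal p s = w + ∑ r ∈ range p, gapSum (fun d => d.factorization p) (A r) ∧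
      ∀ r < p, pos p s r = A r := by
  have hp0 : 0 < p := hp.out.pos
  set s := (range p).biUnion fun r => (A r).image fun k => r + p * k with hs
  have hpos : ∀ r < p, pos p s r = A r := by
    intro r hr
    ext k
    rw [mem_pos hp0 hr, hs, mem_biUnion]
    constructor
    · rintro ⟨r', hr', hk⟩
      rw [mem_range] at hr'
      obtain ⟨k', hk', e⟩ := mem_image.1 hk
      have h1 := congrArg (· % p) e
      simp only [Nat.add_mul_mod_self_left, Nat.mod_eq_of_lt hr', Nat.mod_eq_of_lt hr] at h1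
      subst h1
      rwa [← Nat.eq_of_mul_eq_mul_left hp0 (Nat.add_left_cancel e)]
    · exact fun hk => ⟨r, mem_range.2 hr, mem_image.2 ⟨k, hk, rfl⟩⟩
  have hkey : HasKey p K s := fun r hr => by rw [← card_pos hp0 hr, hpos r hr, hA r hr]
  have hW : ∑ r ∈ range p, gapSum (fun _ => 1) (pos p s r) = w := by
    rw [← hw]
    exact sum_congr rfl fun r hr => by rw [hpos r (mem_range.1 hr)]
  have hsum : ∑ x ∈ s, x = coreSum p K + p * w := by
    rw [sum_eq_coreSum_add_gapSum hp0 hkey, hW]
  refine ⟨s, hkey, hsum, ?_, hpos⟩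
  rw [hookVal_eq_add hkey hsum]
  exact congrArg _ (sum_congr rfl fun r hr => by rw [hpos r (mem_range.1 hr)])

theorem exists_row1 [hp : Fact p.Prime] {K : ℕ → ℕ} (hK : ∀ r < p, 2 ≤ K r) (a : ℕ → ℕ) :
    ∃ s, HasKey p K s ∧ ∑ x ∈ s, x = coreSum p K + p * ∑ r ∈ range p, a r ∧
      hookVal p s = ∑ r ∈ range p, a r + ∑ r ∈ range p, ((a r).factorial).factorization p ∧
      ∀ r < p, pos p s r = row1 (K r) (a r) := by
  obtain ⟨s, h1, h2, h3, h4⟩ := exists_of_pos (K := K) (fun r => row1 (K r) (a r))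
    (fun r hr => card_row1 (le_trans one_le_two (hK r hr)) _) (w := ∑ r ∈ range p, a r)
    (sum_congr rfl fun r _ => by rw [gapSum_row1]; simp)
  refine ⟨s, h1, h2, h3.trans (congrArg _ (sum_congr rfl fun r _ => ?_)), h4⟩
  rw [gapSum_row1, sum_factorization_succ]

/-- A self-conjugate configuration on two runners: an entry with two vacancies below it forces,
on the other runner, a vacancy with two entries above it. -/
theorem mirror_ne {M : ℕ} {s : Finset ℕ} {r r' : ℕ} (hr : r + r' = 1) {k i j : ℕ}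
    (hk : k ∈ pos 2 s r) (hij : i < j) (hjk : j < k) (hi : i ∉ pos 2 s r) (hj : j ∉ pos 2 s r)
    (hno : ∀ z ∉ pos 2 s r', ∀ u ∈ pos 2 s r', ∀ v ∈ pos 2 s r', z < u → u < v → False) :
    mirror M s ≠ s := by
  intro hM
  rw [mem_pos two_pos (by omega)] at hk hi hj
  obtain ⟨hk2, hkm⟩ := (mem_iff_of_sym hM).1 hk
  have up : ∀ l < k, r + 2 * l ∉ s → r' + 2 * (M - 1 - l) ∈ s := by
    intro l hl hls
    by_contra c
    exact hls ((mem_iff_of_sym hM).2 ⟨by omega, fun c' => c (by
      rwa [show r' + 2 * (M - 1 - l) = 2 * M - 1 - (r + 2 * l) by omega])⟩)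
  refine hno (M - 1 - k) ?_ (M - 1 - j) ?_ (M - 1 - i) ?_ (by omega) (by omega)
  · rw [mem_pos two_pos (by omega)]
    exact fun c => hkm (by rwa [show 2 * M - 1 - (r + 2 * k) = r' + 2 * (M - 1 - k) by omega])
  · rw [mem_pos two_pos (by omega)]; exact up j hjk hj
  · rw [mem_pos two_pos (by omega)]; exact up i (hij.trans hjk) hi

theorem row1_no_two {c b z u v : ℕ} (hz : z ∉ row1 c b) (hu : u ∈ row1 c b) (hv : v ∈ row1 c b)
    (hzu : z < u) (huv : u < v) : False := by
  simp only [row1, mem_insert, mem_range] at hz hu hv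
  omega

/-- The largest hook exponent. -/
theorem exists_hookVal_max [hp : Fact p.Prime] {K : ℕ → ℕ} (hK : ∀ r < p, 2 ≤ K r) {w : ℕ}
    (hw : 0 < w) :
    ∃ s, HasKey p K s ∧ ∑ x ∈ s, x = coreSum p K + p * w ∧
      hookVal p s = w + (w.factorial).factorization p ∧ (p = 2 → ∀ M, mirror M s ≠ s) := by
  have hp0 : 0 < p := hp.out.pos
  obtain ⟨s, h1, h2, h3, h4⟩ := exists_row1 hK (fun r => if r = 0 then w else 0)
  have e1 : ∑ r ∈ range p, (if r = 0 then w else 0) = w := by simp [hp0]
  have e2 : ∑ r ∈ range p, ((if r = 0 then w else 0).factorial).factorization p =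
      (w.factorial).factorization p := by
    rw [sum_eq_single 0 (fun r _ hr => by simp [hr]) (fun h => absurd (mem_range.2 hp0) h)]
    simp
  rw [e1] at h2 h3
  rw [e2] at h3
  refine ⟨s, h1, h2, h3, ?_⟩
  rintro rfl M hM
  have hc : ∀ z, 1 + 2 * z ∈ s ↔ z < K 1 := fun z => by
    have := hK 1 one_lt_two
    rw [← mem_pos two_pos one_lt_two, h4 1 one_lt_two]
    simp [row1]
    omega
  have hnc : ¬ RunnerCore 2 s 0 := by
    intro c
    have hk : 0 + 2 * (K 0 - 1 + w) ∈ s := by
      rw [← mem_pos two_pos two_pos, h4 0 two_pos]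
      simp [row1]
    have h5 := c _ (mem_filter.2 ⟨hk, by simp⟩) (by omega)
    rw [show 0 + 2 * (K 0 - 1 + w) - 2 = 0 + 2 * (K 0 - 1 + w - 1) by omega,
      ← mem_pos two_pos two_pos, h4 0 two_pos] at h5
    simp [row1] at h5
    omega
  refine not_runnerCore_mirror hM (r' := 1) (fun x y hxy hx => by omega) hnc fun x hx hx2 => ?_
  obtain ⟨hxs, hxr⟩ := mem_filter.1 hx
  have h5 := (hc (x / 2)).1 (by rwa [show 1 + 2 * (x / 2) = x by omega])
  rw [show x - 2 = 1 + 2 * (x / 2 - 1) by omega]
  exact (hc _).2 (by omega)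

theorem factorization_factorial_add (p a b : ℕ) :
    ((a + b).choose a).factorization p + (a.factorial).factorization p +
      (b.factorial).factorization p = ((a + b).factorial).factorization p := by
  rw [← Nat.choose_mul_factorial_mul_factorial (Nat.le_add_right a b), Nat.add_sub_cancel_left,
    Nat.factorization_mul (Nat.mul_ne_zero (Nat.choose_pos (Nat.le_add_right a b)).ne'
      a.factorial_ne_zero) b.factorial_ne_zero,
    Nat.factorization_mul (Nat.choose_pos (Nat.le_add_right a b)).ne' a.factorial_ne_zero,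
    Finsupp.add_apply, Finsupp.add_apply]

/-- No carry: the leading power splits off. -/
theorem factorization_choose_pow_eq_zero (hp : p.Prime) {m w : ℕ} (h1 : p ^ m ≤ w)
    (h2 : w < p ^ (m + 1)) : (w.choose (p ^ m)).factorization p = 0 := by
  rw [Nat.factorization_choose hp h1 (Nat.lt_succ_self (Nat.log p w)), card_eq_zero,
    filter_eq_empty_iff]
  intro i _ hi
  rcases le_or_gt i m with h | h
  · rw [Nat.mod_eq_zero_of_dvd (pow_dvd_pow p h), zero_add] at hi
    exact absurd (Nat.mod_lt _ (pow_pos hp.pos i)) (not_lt.2 hi)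
  · have h3 : p ^ (m + 1) ≤ p ^ i := Nat.pow_le_pow_right hp.pos h
    have h4 := Nat.mod_le (p ^ m) (p ^ i)
    have h5 := Nat.mod_le (w - p ^ m) (p ^ i)
    omega

/-- One carry: the binary digit `t` is zero and the next one is one. -/
theorem factorization_choose_two_eq_one {t w : ℕ} (h1 : 2 ^ (t + 1) ≤ w % 2 ^ (t + 2))
    (h2 : w % 2 ^ (t + 1) < 2 ^ t) : (w.choose (2 ^ t)).factorization 2 = 1 := by
  have hpt : 2 ^ (t + 1) = 2 * 2 ^ t := pow_succ' 2 t
  have h0 : 0 < 2 ^ t := Nat.two_pow_pos t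
  have hwle := Nat.mod_le w (2 ^ (t + 2))
  rw [Nat.factorization_choose Nat.prime_two (show 2 ^ t ≤ w by omega)
    (b := max (Nat.log 2 w + 1) (t + 2))
    (lt_of_lt_of_le (Nat.lt_succ_self _) (le_max_left _ _)), card_eq_one]
  refine ⟨t + 1, eq_singleton_iff_unique_mem.2 ⟨mem_filter.2 ⟨mem_Ico.2
    ⟨by omega, lt_of_lt_of_le (Nat.lt_succ_self _) (le_max_right _ _)⟩, ?_⟩, ?_⟩⟩
  · rw [Nat.mod_eq_of_lt (show 2 ^ t < 2 ^ (t + 1) by omega)]
    have h3 := Nat.mod_add_div w (2 ^ (t + 1))
    obtain ⟨q, hq⟩ : ∃ q, w / 2 ^ (t + 1) = q + 1 :=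
      ⟨_, (Nat.sub_add_cancel ((Nat.one_le_div_iff (by omega)).2 (by omega))).symm⟩
    rw [hq, Nat.mul_add, mul_one] at h3
    rw [show w - 2 ^ t = w % 2 ^ (t + 1) + 2 ^ t + 2 ^ (t + 1) * q by omega,
      Nat.add_mul_mod_self_left,
      Nat.mod_eq_of_lt (show w % 2 ^ (t + 1) + 2 ^ t < 2 ^ (t + 1) by omega)]
    omega
  · intro i hi
    obtain ⟨-, hi⟩ := mem_filter.1 hi
    by_contra hne
    rcases Nat.lt_or_gt_of_ne hne with h | h
    · rw [Nat.mod_eq_zero_of_dvd (pow_dvd_pow 2 (Nat.lt_succ_iff.1 h)), zero_add] at hi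
      exact absurd (Nat.mod_lt _ (Nat.two_pow_pos i)) (not_lt.2 hi)
    · have hlt : 2 ^ t < 2 ^ i := Nat.pow_lt_pow_right one_lt_two (by omega)
      have h5 : w % 2 ^ (t + 2) ≤ w % 2 ^ i := by
        rw [← Nat.mod_mod_of_dvd w (pow_dvd_pow 2 (show t + 2 ≤ i by omega))]
        exact Nat.mod_le _ _
      rw [Nat.mod_eq_of_lt hlt] at hi
      have h3 := Nat.mod_add_div w (2 ^ i)
      have h4 := Nat.mod_lt w (Nat.two_pow_pos i)
      rw [show w - 2 ^ t = w % 2 ^ i - 2 ^ t + 2 ^ i * (w / 2 ^ i) by omega,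
        Nat.add_mul_mod_self_left, Nat.mod_eq_of_lt (show w % 2 ^ i - 2 ^ t < 2 ^ i by omega)]
        at hi
      omega

theorem exists_two_row1 [Fact (Nat.Prime 2)] {K : ℕ → ℕ} (hK : ∀ r < 2, 2 ≤ K r) {a b : ℕ}
    (h : 2 ≤ a ∨ 2 ≤ b) {c : ℕ}
    (hc : (a.factorial).factorization 2 + (b.factorial).factorization 2 + c =
      ((a + b).factorial).factorization 2) :
    ∃ s, HasKey 2 K s ∧ ∑ x ∈ s, x = coreSum 2 K + 2 * (a + b) ∧
      hookVal 2 s + c = a + b + ((a + b).factorial).factorization 2 ∧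
      ∀ M, mirror M s ≠ s := by
  obtain ⟨s, h1, h2, h3, h4⟩ := exists_row1 hK (fun r => if r = 0 then a else b)
  simp only [sum_range_succ, range_zero, sum_empty, zero_add, if_true, one_ne_zero, if_false]
    at h2 h3
  refine ⟨s, h1, h2, by omega, fun M => ?_⟩
  have hno : ∀ r' < 2, ∀ z ∉ pos 2 s r', ∀ u ∈ pos 2 s r', ∀ v ∈ pos 2 s r',
      z < u → u < v → False := fun r' hr' => by
    rw [h4 r' hr']
    exact fun z hz u hu v hv => row1_no_two hz hu hv
  rcases h with h | h
  · have := hK 0 two_pos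
    refine mirror_ne (r := 0) (r' := 1) rfl (k := K 0 - 1 + a) (i := K 0 - 1) (j := K 0)
      ?_ (by omega) (by omega) ?_ ?_ (hno 1 one_lt_two) <;>
      simp [h4 0 two_pos, row1] <;> omega
  · have := hK 1 one_lt_two
    refine mirror_ne (r := 1) (r' := 0) rfl (k := K 1 - 1 + b) (i := K 1 - 1) (j := K 1)
      ?_ (by omega) (by omega) ?_ ?_ (hno 0 two_pos) <;>
      simp [h4 1 one_lt_two, row1] <;> omega

theorem exists_max_sub_one_two [Fact (Nat.Prime 2)] {K : ℕ → ℕ} (hK : ∀ r < 2, 2 ≤ K r) {w : ℕ}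
    (hw : 3 ≤ w) :
    ∃ s, HasKey 2 K s ∧ ∑ x ∈ s, x = coreSum 2 K + 2 * w ∧
      hookVal 2 s + 1 = w + (w.factorial).factorization 2 ∧ ∀ M, mirror M s ≠ s := by
  by_cases h4 : w % 4 = 3
  · -- the hook lengths of `(w - 1, 1)` on one runner
    have hK0 := hK 0 two_pos
    have hK1 := hK 1 one_lt_two
    let A : ℕ → Finset ℕ := fun r => if r = 0 then row2 (K 0) (w - 1) 1 else row1 (K 1) 0
    have hA : ∀ r < 2, (A r).card = K r := by
      intro r hr
      interval_cases r
      · exact card_row2 hK0 (by omega)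
      · exact card_row1 (by omega) 0
    have e1 := gapSum_row2 (fun _ => 1) (a := w - 1) hK0 (show 1 ≤ w - 1 by omega)
    simp only [sum_const, card_range, smul_eq_mul, mul_one] at e1
    have eW : ∑ r ∈ range 2, gapSum (fun _ => 1) (A r) = w := by
      simp only [A, sum_range_succ, range_zero, sum_empty, zero_add, if_true, one_ne_zero, if_false,
        gapSum_row1]
      omega
    obtain ⟨s, h1, h2, h3, hpos⟩ := exists_of_pos A hA eW
    refine ⟨s, h1, h2, ?_, fun M => ?_⟩
    · have e2 := gapSum_row2 (fun d => d.factorization 2) (a := w - 1) hK0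
        (show 1 ≤ w - 1 by omega)
      rw [sum_factorization_succ, sum_factorization_succ, show w - 1 + 1 - 1 = w - 1 by omega,
        show w - 1 + 1 = w by omega] at e2
      have e3 : (w - 1).factorization 2 = 1 := by
        rw [show w - 1 = 2 * ((w - 1) / 2) by omega,
          Nat.factorization_mul two_ne_zero (by omega), Finsupp.add_apply,
          Nat.prime_two.factorization_self, Nat.factorization_eq_zero_of_not_dvd (by omega)]
      simp only [A, sum_range_succ, range_zero, sum_empty, zero_add, if_true, one_ne_zero, if_false,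
        gapSum_row1] at h3
      simp at e2
      omega
    · refine mirror_ne (r := 0) (r' := 1) rfl (k := K 0 - 1 + (w - 1)) (i := K 0 - 2) (j := K 0)
        ?_ (by omega) (by omega) ?_ ?_ ?_
      · simp [hpos 0 two_pos, A, row2]
      · simp [hpos 0 two_pos, A, row2]; omega
      · simp [hpos 0 two_pos, A, row2]; omega
      · rw [hpos 1 one_lt_two]
        exact fun z hz u hu v hv => row1_no_two hz hu hv
  · -- two runners
    obtain ⟨k, m, ⟨q, rfl⟩, hk⟩ :=
      Nat.exists_eq_two_pow_mul_odd (n := w - w % 2) (by omega)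
    obtain ⟨t, rfl⟩ : ∃ t, k = t + 1 := ⟨k - 1, by
      rcases Nat.eq_zero_or_pos k with rfl | h
      · rw [pow_zero, one_mul] at hk; omega
      · omega⟩
    have hp1 : 2 ^ (t + 1) = 2 * 2 ^ t := pow_succ' 2 t
    have hp2 : 2 ^ (t + 2) = 2 * 2 ^ (t + 1) := pow_succ' 2 (t + 1)
    have hp0 : 0 < 2 ^ t := Nat.two_pow_pos t
    have hw' : w = 2 ^ (t + 1) + w % 2 + 2 ^ (t + 2) * q := by
      rw [Nat.mul_add, mul_one, ← mul_assoc, ← pow_succ, show t + 1 + 1 = t + 2 from rfl] at hk
      omega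
    have hm2 : w % 2 < 2 ^ t := by
      rcases Nat.eq_zero_or_pos (w % 2) with h | h
      · omega
      · rcases Nat.eq_zero_or_pos t with rfl | ht
        · norm_num at hw'; omega
        · have : 2 ^ 1 ≤ 2 ^ t := Nat.pow_le_pow_right two_pos ht
          omega
    have e2 : w % 2 ^ (t + 2) = 2 ^ (t + 1) + w % 2 := by
      conv_lhs => rw [hw']
      rw [Nat.add_mul_mod_self_left, Nat.mod_eq_of_lt (by omega)]
    have e1 : w % 2 ^ (t + 1) = w % 2 := by
      rw [← Nat.mod_mod_of_dvd w (pow_dvd_pow 2 (show t + 1 ≤ t + 2 by omega)), e2,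
        Nat.add_mod_left, Nat.mod_eq_of_lt (by omega)]
    have hc := factorization_choose_two_eq_one (t := t) (w := w) (by omega) (by omega)
    have hle : 2 ^ t ≤ w := by omega
    have h5 := factorization_factorial_add 2 (2 ^ t) (w - 2 ^ t)
    rw [Nat.add_sub_cancel' hle, hc] at h5
    obtain ⟨s, h1, h2, h3, h6⟩ := exists_two_row1 hK (a := 2 ^ t) (b := w - 2 ^ t) (c := 1)
      (by omega) (by rw [Nat.add_sub_cancel' hle]; omega)
    rw [Nat.add_sub_cancel' hle] at h2 h3
    exact ⟨s, h1, h2, h3, h6⟩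

/-- Weight at least `p`: one below the largest hook exponent. -/
theorem exists_hookVal_max_sub_one [hp : Fact p.Prime] {K : ℕ → ℕ} (hK : ∀ r < p, 2 ≤ K r) {w : ℕ}
    (hw : p ≤ w) (h3 : p = 2 → 3 ≤ w) :
    ∃ s, HasKey p K s ∧ ∑ x ∈ s, x = coreSum p K + p * w ∧
      hookVal p s + 1 = w + (w.factorial).factorization p ∧ (p = 2 → ∀ M, mirror M s ≠ s) := by
  by_cases h2 : p = 2
  · subst h2
    obtain ⟨s, a, b, c, d⟩ := exists_max_sub_one_two hK (h3 rfl)
    exact ⟨s, a, b, c, fun _ => d⟩
  have hp3 : 3 ≤ p := by have := hp.out.two_le; omega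
  obtain ⟨n, hn⟩ : ∃ n, Nat.log p w = n + 1 :=
    ⟨_, (Nat.sub_add_cancel (Nat.log_pos hp.out.one_lt hw)).symm⟩
  have hlo : p ^ (n + 1) ≤ w := hn ▸ Nat.pow_log_le_self p (by omega)
  have hhi : w < p ^ (n + 1 + 1) := hn ▸ Nat.lt_pow_succ_log_self hp.out.one_lt w
  have hle : p ^ n ≤ p ^ (n + 1) := Nat.pow_le_pow_right hp.out.pos n.le_succ
  have c1 := factorization_factorial_add p (p ^ (n + 1)) (w - p ^ (n + 1))
  rw [Nat.add_sub_cancel' hlo, factorization_choose_pow_eq_zero hp.out hlo hhi] at c1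
  have c2 := factorization_factorial_add p (p ^ n) (p ^ (n + 1) - p ^ n)
  have c3 : ((p ^ (n + 1)).choose (p ^ n)).factorization p = 1 := by
    rw [Nat.factorization_choose_prime_pow hp.out hle (pow_ne_zero n hp.out.ne_zero),
      Nat.factorization_pow_self hp.out]
    omega
  rw [Nat.add_sub_cancel' hle, c3] at c2
  obtain ⟨s, h1, hs2, hs3, -⟩ := exists_row1 hK (fun r =>
    if r = 0 then p ^ n else if r = 1 then p ^ (n + 1) - p ^ n
    else if r = 2 then w - p ^ (n + 1) else 0)
  have cut : ∀ g : ℕ → ℕ, (∀ r, 3 ≤ r → g r = 0) → ∑ r ∈ range p, g r = g 0 + g 1 + g 2 := by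
    intro g hg
    rw [← sum_subset (range_mono hp3) fun r _ hr => hg r (by simpa using hr)]
    simp [sum_range_succ]
  rw [cut _ fun r hr => by
    simp [show r ≠ 0 by omega, show r ≠ 1 by omega, show r ≠ 2 by omega]] at hs2 hs3
  rw [cut _ fun r hr => by
    simp [show r ≠ 0 by omega, show r ≠ 1 by omega, show r ≠ 2 by omega]] at hs3
  simp only [if_true, one_ne_zero, if_false, show (2 : ℕ) ≠ 0 from two_ne_zero,
    show (2 : ℕ) ≠ 1 by omega] at hs2 hs3
  rw [show p ^ n + (p ^ (n + 1) - p ^ n) + (w - p ^ (n + 1)) = w by omega] at hs2 hs3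
  exact ⟨s, h1, hs2, by omega, fun h => absurd h h2⟩

end CfsgLib.SymBlocks.Abacus
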