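import Cfsg.Agent.SymBlocks.AltMain
import Cfsg.Agent.Blocks.BrauerBasis.Section
import Cfsg.Agent.Blocks.HeightZero.RegularPair

/-!
# One block for each key

Two beta-number sets with the same residue counts give characters in the same block of the
symmetric group.  Induction on the number of points: a block of positive weight has a character
not vanishing at `t * y` for a fixed `p`-cycle `t` and some `p`-regular `y` commuting with it, and
by the second main theorem the block is then induced from the one block of the centralizer of `t`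
lying over the key on the points fixed by `t`.
-/

set_option autoImplicit false
set_option linter.style.haveILetI false
set_option linter.unusedSectionVars false

open scoped Classical

namespace CfsgLib.SymBlocks

open Finset Cfsg CfsgLib.Blocks

universe u

variable {p N : ℕ}

/-- A configuration of weight zero is a core. -/
theorem Abacus.runnerCore_of_sum (hp : 0 < p) {K : ℕ → ℕ} {s : Finset ℕ}
    (hs : Abacus.HasKey p K s) (hsum : ∑ x ∈ s, x = Abacus.coreSum p K) :
    ∀ r < p, Abacus.RunnerCore p s r := by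
  intro r hr
  by_contra hc
  obtain ⟨a, k, hk, hh, hx, -, -⟩ := Abacus.exists_move hp hr hc
  have h := Abacus.sum_move hx hh
  obtain ⟨v, hv⟩ := Abacus.exists_weight hp (K := K)
    (s := insert (r + p * a) (s.erase (r + p * (a + k))))
    (fun r' hr' => by rw [Abacus.card_runner_move hx hh (by simp), hs r' hr'])
  have hpk : 0 < p * k := Nat.mul_pos hp hk
  rw [hv, hsum, Nat.mul_add] at h
  omega

/-- Pulling back along a surjection keeps characters in the same block. -/
theorem sameBlock_comp_of_surjective {G H : Type*} [Group G] [Finite G] [Group H] [Finite H]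
    {M : Ideal AlgInt} [M.IsMaximal] (f : G →* H) (hf : Function.Surjective f) {χ ψ : H → ℂ}
    (h : SameBlock M χ ψ) : SameBlock M (fun g => χ (f g)) (fun g => ψ (f g)) := by
  intro g
  have hle : Subgroup.centralizer ({g} : Set G) ≤
      (Subgroup.centralizer ({f g} : Set H)).comap f := by
    intro x hx
    rw [Subgroup.mem_comap, Subgroup.mem_centralizer_singleton_iff]
    rw [Subgroup.mem_centralizer_singleton_iff] at hx
    rw [← map_mul, ← map_mul, hx]
  obtain ⟨m, hm⟩ := Subgroup.index_dvd_of_le hle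
  rw [Subgroup.index_comap_of_surjective _ hf] at hm
  have e : ∀ φ : H → ℂ, centralChar (fun x => φ (f x)) g = (m : ℂ) * centralChar φ (f g) := by
    intro φ
    simp only [centralChar, hm, map_one]
    push_cast
    ring
  rw [e, e, ← mul_sub]
  exact memLocalIdeal_mul_left (mem_localRing.1 (natCast_mem (localRing M) _)) (h (f g))

/-- Block parts are linear. -/
theorem blockPart_sum_smul {H : Type u} [Group H] [Fintype H] {ι : Type*}
    (b : Set (IrrCharacter H)) (s : Finset ι) (a : ι → ℂ) (f : ι → H → ℂ) :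
    blockPart b (∑ i ∈ s, a i • f i) = ∑ i ∈ s, a i • blockPart b (f i) := by
  simp only [blockPart_apply_eq, Chars.classInner_sum_left, Chars.classInner_smul_left,
    Finset.smul_sum, Finset.sum_smul, smul_smul]
  rw [Finset.sum_comm]

section Projection

variable {X : Type u} [Fintype X] (t : Equiv.Perm X)

theorem apply_notMem_support_iff (c : Subgroup.centralizer ({t} : Set (Equiv.Perm X))) (a : X) :
    (c : Equiv.Perm X) a ∉ t.support ↔ a ∉ t.support := by
  have h : ∀ b, t ((c : Equiv.Perm X) b) = (c : Equiv.Perm X) (t b) := fun b => by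
    have := (Subgroup.mem_centralizer_singleton_iff.1 c.2)
    rw [← Equiv.Perm.mul_apply, ← Equiv.Perm.mul_apply, this]
  simp only [Equiv.Perm.mem_support, h, not_not, (c : Equiv.Perm X).injective.eq_iff]

/-- The action of the centralizer of `t` on the points fixed by `t`. -/
noncomputable def restProj :
    Subgroup.centralizer ({t} : Set (Equiv.Perm X)) →* Equiv.Perm {a // a ∉ t.support} where
  toFun c := (c : Equiv.Perm X).subtypePerm (apply_notMem_support_iff t c)
  map_one' := Equiv.ext fun _ => rfl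
  map_mul' _ _ := Equiv.ext fun _ => rfl

theorem restProj_apply (c : Subgroup.centralizer ({t} : Set (Equiv.Perm X)))
    (a : {a // a ∉ t.support}) : (restProj t c a : X) = (c : Equiv.Perm X) a := rfl

theorem restProj_surjective : Function.Surjective (restProj t) := by
  intro z
  have hc : Commute t (Equiv.Perm.ofSubtype z) := by
    refine Equiv.Perm.Disjoint.commute fun a => ?_
    by_cases ha : a ∈ t.support
    · exact Or.inr (Equiv.Perm.ofSubtype_apply_of_not_mem z (not_not.2 ha))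
    · exact Or.inl (Equiv.Perm.notMem_support.1 ha)
  refine ⟨⟨Equiv.Perm.ofSubtype z, Subgroup.mem_centralizer_singleton_iff.2 hc.symm.eq⟩,
    Equiv.ext fun a => Subtype.ext ?_⟩
  rw [restProj_apply]
  exact Equiv.Perm.ofSubtype_apply_coe z a

/-- The character of the centralizer of `t` attached to a beta-number set on the fixed points. -/
noncomputable def inflOf (γ : {γ : Fin N → ℤ // IsBeta {a // a ∉ t.support} γ}) :
    IrrCharacter (Subgroup.centralizer ({t} : Set (Equiv.Perm X))) :=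
  ⟨fun c => (irrOf γ : Equiv.Perm {a // a ∉ t.support} → ℂ) (restProj t c),
    Chars.isIrrCharacter_comp (irrOf γ).2 (restProj t) (restProj_surjective t)⟩

theorem inflOf_apply (γ : {γ : Fin N → ℤ // IsBeta {a // a ∉ t.support} γ})
    (c : Subgroup.centralizer ({t} : Set (Equiv.Perm X))) :
    (inflOf t γ : Subgroup.centralizer ({t} : Set (Equiv.Perm X)) → ℂ) c =
      (chiB (restProj t c) γ.1 : ℂ) :=
  irrOf_eq_chiB γ _

end Projection

variable {X : Type u} [Fintype X]

/-- A `p`-regular element commuting with a `p`-cycle fixes its support. -/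
theorem regular_apply_eq_self [Fact p.Prime] {t c : Equiv.Perm X} (ht : t.IsCycle)
    (htp : t.support.card = p) (hc : Commute t c) (hr : ¬ p ∣ orderOf c) {a : X}
    (ha : a ∈ t.support) : c a = a := by
  have hp : p.Prime := Fact.out
  have hinv : ∀ b, t (c b) = c (t b) := fun b => Equiv.congr_fun hc.eq b
  have hca : c a ∈ t.support := by
    rw [Equiv.Perm.mem_support, hinv]
    exact fun h => Equiv.Perm.mem_support.1 ha (c.injective h)
  obtain ⟨i, hi⟩ := (ht.sameCycle (Equiv.Perm.mem_support.1 ha)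
    (Equiv.Perm.mem_support.1 hca)).exists_nat_pow_eq
  have hpow : ∀ j : ℕ, (c ^ j) a = (t ^ (i * j)) a := fun j => by
    induction j with
    | zero => simp
    | succ j ih =>
      rw [pow_succ', Equiv.Perm.mul_apply, ih, ← Equiv.Perm.mul_apply,
        ← (hc.pow_left (i * j)).eq, Equiv.Perm.mul_apply, ← hi, ← Equiv.Perm.mul_apply, ← pow_add,
        Nat.mul_succ]
  have h0 := hpow (orderOf c)
  rw [pow_orderOf_eq_one, Equiv.Perm.one_apply] at h0
  have hto : orderOf t = p := ht.orderOf.trans htp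
  have h1 : t ^ (i * orderOf c) = 1 := ht.pow_eq_one_iff.2
    ⟨a, Equiv.Perm.mem_support.1 ha, h0.symm⟩
  have h2 : p ∣ i * orderOf c := hto ▸ orderOf_dvd_of_pow_eq_one h1
  have h3 : t ^ i = 1 := orderOf_dvd_iff_pow_eq_one.1 (hto.symm ▸ (hp.dvd_mul.1 h2).resolve_right hr)
  rw [← hi, h3, Equiv.Perm.one_apply]

/-- A block with a character not vanishing at `w > 0` disjoint `p`-cycles has a character not
vanishing at `t * y`, for the given `p`-cycle `t` and some `p`-regular `y` commuting with it. -/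
theorem exists_regular_section_ne_zero [Fact p.Prime] {M : Ideal AlgInt} (hM : IsPModular p M)
    {B : Set (IrrCharacter (Equiv.Perm X))} (hB : IsPBlock M B) {χ₁ : IrrCharacter (Equiv.Perm X)}
    (hχ₁ : χ₁ ∈ B) {g : Equiv.Perm X} (hg : g ^ p = 1) (hg0 : g.support.Nonempty)
    (hne : (χ₁ : Equiv.Perm X → ℂ) g ≠ 0) {t : Equiv.Perm X} (ht : t.IsCycle)
    (htp : t.support.card = p) :
    ∃ χ ∈ B, ∃ y : Subgroup.centralizer ({t} : Set (Equiv.Perm X)), IsPRegular p y ∧
      (χ : Equiv.Perm X → ℂ) (t * (y : Equiv.Perm X)) ≠ 0 := by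
  have hp : p.Prime := Fact.out
  have := isMaximal_of_isPModular hM
  have hB' : B = blockOf M (χ₁ : Equiv.Perm X → ℂ) := eq_blockOf_of_mem hB hχ₁
  obtain ⟨D, hD, hgD⟩ : ∃ D, IsDefectGroup p M B D ∧ g ∈ D := by
    by_contra! hall
    refine hne (HeightZero.apply_eq_zero_of_pPart hM χ₁ (g := g) (x := g)
      ⟨1, mul_one g, Commute.one_right g, ?_, by rw [orderOf_one]; exact hp.not_dvd_one⟩
      fun D hD => hall D (hB' ▸ hD))
    rcases (Nat.dvd_prime hp).1 (orderOf_dvd_of_pow_eq_one hg) with h | h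
    · exact ⟨0, by rw [h, pow_zero]⟩
    · exact ⟨1, by rw [h, pow_one]⟩
  have hpD : IsPGroup p D := by
    obtain ⟨_, _, P, rfl⟩ := hD
    exact P.2.map _
  have hcore := Cfsg.Agent.S0955.result p M hM B hB D hD
  obtain ⟨x, hxcl, P, hP⟩ := id hD
  have hxr : ¬ p ∣ orderOf x := not_dvd_orderOf_of_isDefectClass hM hB hxcl
  have hcomm : ∀ d ∈ D, d * x = x * d := fun d hd => by
    rw [hP] at hd
    obtain ⟨c, -, rfl⟩ := hd
    exact Subgroup.mem_centralizer_singleton_iff.1 c.2
  obtain ⟨a₀, ha₀⟩ := hg0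
  set t₁ := g.cycleOf a₀ with ht₁
  have hc₁ : t₁.IsCycle := Equiv.Perm.isCycle_cycleOf g (Equiv.Perm.mem_support.1 ha₀)
  have hc₁p : t₁.support.card = p := by
    refine Multiset.eq_of_mem_replicate (n := Multiset.card g.cycleType) ?_
    rw [← Equiv.Perm.cycleType_of_pow_prime_eq_one hg, Equiv.Perm.cycleType_def]
    exact Multiset.mem_map.2
      ⟨t₁, Equiv.Perm.cycleOf_mem_cycleFactorsFinset_iff.2 ha₀, rfl⟩
  have hc : Commute t₁ x := by
    refine Equiv.Perm.Disjoint.commute fun a => ?_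
    by_cases ha : a ∈ t₁.support
    · exact Or.inr (fix_of_mem_centralizer hpD hcore hcomm hxr
        ⟨g, hgD, Equiv.Perm.mem_support.1 (Equiv.Perm.support_cycleOf_le g a₀ ha)⟩)
    · exact Or.inl (Equiv.Perm.notMem_support.1 ha)
  obtain ⟨χ, hχ, h0⟩ := HeightZero.exists_height_zero (p := p) hB
  have hne' : (χ : Equiv.Perm X → ℂ) (t₁ * x) ≠ 0 := by
    intro h
    refine not_memLocalIdeal_apply_of_height_zero hM hB hxcl hχ h0 ?_
    rw [← (HeightZero.congr_apply_mul hM (Chars.isCharacter_coe χ) hc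
      (k := 1) (by rw [hc₁.orderOf, hc₁p, pow_one]) hxr).mem_iff, h]
    exact memLocalIdeal_zero
  obtain ⟨c, hct⟩ := isConj_iff.1 (hc₁.isConj ht (hc₁p.trans htp.symm))
  refine ⟨χ, hχ, ⟨c * x * c⁻¹, ?_⟩, ?_, ?_⟩
  · rw [Subgroup.mem_centralizer_singleton_iff, ← hct]
    calc c * x * c⁻¹ * (c * t₁ * c⁻¹) = c * (x * t₁) * c⁻¹ := by group
      _ = c * (t₁ * x) * c⁻¹ := by rw [hc.eq]
      _ = _ := by group
  · rw [IsPRegular, Subgroup.orderOf_mk]
    exact (show orderOf (c * x * c⁻¹) = orderOf x from MulEquiv.orderOf_eq (MulAut.conj c) x).symm ▸ hxr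
  · show (χ : Equiv.Perm X → ℂ) (t * (c * x * c⁻¹)) ≠ 0
    rw [← hct, show c * t₁ * c⁻¹ * (c * x * c⁻¹) = c * (t₁ * x) * c⁻¹ by group,
      irrCharacter_conj]
    exact hne'

/-- A block not vanishing on the section of a `p`-cycle is induced from the block over its key. -/
theorem exists_isInducedBlock [Fact p.Prime] {M : Ideal AlgInt} (hM : IsPModular p M)
    {t : Equiv.Perm X} (ht : t.IsCycle) (htp : t.support.card = p)
    {β : {β : Fin N → ℤ // IsBeta X β}} {B : Set (IrrCharacter (Equiv.Perm X))}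
    (hB : IsPBlock M B) (hβ : irrOf β ∈ B)
    {y : Subgroup.centralizer ({t} : Set (Equiv.Perm X))} (hy : IsPRegular p y)
    (hne : (irrOf β : Equiv.Perm X → ℂ) (t * (y : Equiv.Perm X)) ≠ 0)
    (hIH : ∀ γ γ' : {γ : Fin N → ℤ // IsBeta {a // a ∉ t.support} γ},
      keyOf p γ.1 = keyOf p γ'.1 → SameBlock M
        (irrOf γ : Equiv.Perm {a // a ∉ t.support} → ℂ)
        (irrOf γ' : Equiv.Perm {a // a ∉ t.support} → ℂ)) :
    ∃ γ : {γ : Fin N → ℤ // IsBeta {a // a ∉ t.support} γ}, keyOf p γ.1 = keyOf p β.1 ∧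
      IsInducedBlock M (Subgroup.centralizer ({t} : Set (Equiv.Perm X)))
        (blockOf M (inflOf t γ : Subgroup.centralizer ({t} : Set (Equiv.Perm X)) → ℂ)) B := by
  have := isMaximal_of_isPModular hM
  haveI : Fintype (Subgroup.centralizer ({t} : Set (Equiv.Perm X))) := Fintype.ofFinite _
  haveI : Fintype {γ : Fin N → ℤ // IsBeta {a // a ∉ t.support} γ} :=
    Fintype.ofFinset (betaSet {a // a ∉ t.support} N) fun γ => mem_betaSet
  set f : Subgroup.centralizer ({t} : Set (Equiv.Perm X)) → ℂ := fun c => (irrOf β : Equiv.Perm X → ℂ) (t * (c : Equiv.Perm X)) with hf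
  set f' : Subgroup.centralizer ({t} : Set (Equiv.Perm X)) → ℂ := ∑ γ : {γ : Fin N → ℤ // IsBeta {a // a ∉ t.support} γ},
    shiftCoeff p γ.1 β.1 • (inflOf t γ : Subgroup.centralizer ({t} : Set (Equiv.Perm X)) → ℂ) with hf'
  -- the Murnaghan–Nakayama rule on the regular elements
  have hfreg : ∀ c : Subgroup.centralizer ({t} : Set (Equiv.Perm X)), IsPRegular p c → f c = f' c := by
    intro c hcr
    have hcomm : Commute t (c : Equiv.Perm X) :=
      (Subgroup.mem_centralizer_singleton_iff.1 c.2).symm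
    have hreg : ¬ p ∣ orderOf (c : Equiv.Perm X) := by rwa [Subgroup.orderOf_coe]
    have hfix : ∀ a ∈ t.support, (c : Equiv.Perm X) a = a := fun a ha =>
      regular_apply_eq_self ht htp hcomm hreg ha
    have hout : ∀ a, a ∉ t.support → (t * (c : Equiv.Perm X)) a = (c : Equiv.Perm X) a :=
      fun a ha => by
        rw [Equiv.Perm.mul_apply]
        exact Equiv.Perm.notMem_support.1 ((apply_notMem_support_iff t c a).2 ha)
    have hy' : ∀ a, a ∉ t.support ↔ (t * (c : Equiv.Perm X)) a ∉ t.support := fun a => by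
      by_cases ha : a ∈ t.support
      · rw [Equiv.Perm.mul_apply, hfix a ha, Equiv.Perm.apply_mem_support]
      · rw [hout a ha, apply_notMem_support_iff t c a]
    have hpow : ∀ (j : ℕ), ∀ a ∈ t.support, ((t * (c : Equiv.Perm X)) ^ j) a = (t ^ j) a := by
      intro j
      induction j with
      | zero => simp
      | succ j ih =>
        intro a ha
        rw [pow_succ, pow_succ, Equiv.Perm.mul_apply, Equiv.Perm.mul_apply, Equiv.Perm.mul_apply,
          hfix a ha, ih _ (Equiv.Perm.apply_mem_support.2 ha)]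
    have horb : ∀ a ∈ t.support, ∀ b ∈ t.support, (t * (c : Equiv.Perm X)).SameCycle a b := by
      intro a ha b hb
      obtain ⟨j, hj⟩ := (ht.sameCycle (Equiv.Perm.mem_support.1 ha)
        (Equiv.Perm.mem_support.1 hb)).exists_nat_pow_eq
      exact ⟨(j : ℤ), by rw [zpow_natCast, hpow j a ha, hj]⟩
    have hsub : (t * (c : Equiv.Perm X)).subtypePerm (p := fun a => a ∉ t.support)
        (fun a => (hy' a).symm) = restProj t c :=
      Equiv.ext fun a => Subtype.ext (hout a.1 a.2)
    show (irrOf β : Equiv.Perm X → ℂ) (t * (c : Equiv.Perm X)) = f' c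
    rw [irrOf_eq_chiB, chiB_orbit_expand ht.nonempty_support hy' horb β.1, hsub, htp, hf',
      Finset.sum_apply, Finset.sum_subtype (betaSet {a // a ∉ t.support} N) (fun γ => mem_betaSet)]
    refine Finset.sum_congr rfl fun γ _ => ?_
    rw [Pi.smul_apply, smul_eq_mul, inflOf_apply]
  have hfy : f' y ≠ 0 := by rw [← hfreg y hy]; exact hne
  obtain ⟨γ₀, -, hγ₀⟩ := Finset.exists_ne_zero_of_sum_ne_zero
    (by rw [hf', Finset.sum_apply] at hfy; exact hfy)
  have hk₀ : keyOf p γ₀.1 = keyOf p β.1 :=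
    keyOf_eq_of_shiftCoeff (dvd_refl p) fun h => hγ₀ (by rw [Pi.smul_apply, h, zero_smul])
  refine ⟨γ₀, hk₀, ?_⟩
  set b := blockOf M (inflOf t γ₀ : Subgroup.centralizer ({t} : Set (Equiv.Perm X)) → ℂ)
  have hb : IsPBlock M b := ⟨_, rfl⟩
  by_contra hnot
  have h0 := blockPart_section_eq_zero hM rfl ⟨1, by rw [ht.orderOf, htp, pow_one]⟩ hb hB hnot hβ hy
  rw [BrauerBasis.blockPart_congr_regular hM hb (f' := f') hfreg hy, hf', blockPart_sum_smul,
    Finset.sum_apply] at h0
  refine hfy ?_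
  rw [← h0, hf', Finset.sum_apply]
  refine Finset.sum_congr rfl fun γ _ => ?_
  simp only [Pi.smul_apply]
  by_cases hz : shiftCoeff p γ.1 β.1 = 0
  · rw [hz, zero_smul, zero_smul]
  have hmem : inflOf t γ ∈ b :=
    sameBlock_comp_of_surjective (restProj t) (restProj_surjective t)
      (hIH γ₀ γ (hk₀.trans (keyOf_eq_of_shiftCoeff (dvd_refl p) hz).symm))
  rw [blockPart_irr, Set.indicator_of_mem hmem]

set_option maxHeartbeats 1000000 in
/-- **One block for each key.** -/
theorem sameBlock_of_keyOf [Fact p.Prime] (hN : Fintype.card X ≤ N) {M : Ideal AlgInt}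
    (hM : IsPModular p M) (β γ : {β : Fin N → ℤ // IsBeta X β})
    (hk : keyOf p β.1 = keyOf p γ.1) :
    SameBlock M (irrOf β : Equiv.Perm X → ℂ) (irrOf γ : Equiv.Perm X → ℂ) := by
  suffices H : ∀ (n : ℕ) (X : Type u) [Fintype X], Fintype.card X = n → n ≤ N →
      ∀ β γ : {β : Fin N → ℤ // IsBeta X β}, keyOf p β.1 = keyOf p γ.1 →
      SameBlock M (irrOf β : Equiv.Perm X → ℂ) (irrOf γ : Equiv.Perm X → ℂ) from
    H _ X rfl hN β γ hk
  clear hk β γ hN
  intro n
  induction n using Nat.strong_induction_on with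
  | _ n ih => ?_
  intro X _ hn hN β γ hk
  subst hn
  have := isMaximal_of_isPModular hM
  have hp : p.Prime := Fact.out
  have hkey : ∀ β : {β : Fin N → ℤ // IsBeta X β}, ∃ w : ℕ,
      (∑ x ∈ toSet β.1, x = Abacus.coreSum p (natKey p β.1) + p * w) ∧
      ∃ χ ∈ blockOf M (irrOf β : Equiv.Perm X → ℂ), ∃ g : Equiv.Perm X, g ^ p = 1 ∧
        g.support.card = p * w ∧ (χ : Equiv.Perm X → ℂ) g ≠ 0 := by
    intro β
    obtain ⟨K, w, hK, hw, hrest⟩ := exists_weight_data (N := N) hN hM
      (⟨irrOf β, rfl⟩ : IsPBlock M (blockOf M (irrOf β : Equiv.Perm X → ℂ)))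
    obtain ⟨β', hk', hβ'⟩ := hK (irrOf β) (self_mem_blockOf _)
    obtain rfl := (irrOf_bijective hN).1 hβ'
    refine ⟨w, ?_, hrest⟩
    rw [hw β'.1 β'.2 hk']
    subst hk'
    rfl
  obtain ⟨w, hw, χ₁, hχ₁, g₁, hg₁, hgc₁, hne₁⟩ := hkey β
  obtain ⟨v, hv, χ₂, hχ₂, g₂, hg₂, hgc₂, hne₂⟩ := hkey γ
  have hnk : natKey p γ.1 = natKey p β.1 := funext fun r => congrFun hk.symm _
  have hvw : v = w := by
    have h := sum_toSet_isBeta β.2 γ.2
    rw [hw, hv, hnk] at h
    exact Nat.eq_of_mul_eq_mul_left hp.pos (Nat.add_left_cancel h)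
  subst hvw
  rcases Nat.eq_zero_or_pos v with rfl | hv0
  · -- weight zero: only one beta-number set has this key
    rw [mul_zero, add_zero] at hw hv
    have hβs := hasKey_toSet (p := p) β.2.nonneg β.2.mono.injective
    have hγs := hnk ▸ hasKey_toSet (p := p) γ.2.nonneg γ.2.mono.injective
    have hset : toSet β.1 = toSet γ.1 := Abacus.eq_of_core hp.pos hβs hγs
      (Abacus.runnerCore_of_sum hp.pos hβs hw) (Abacus.runnerCore_of_sum hp.pos hγs (hnk ▸ hv))
    obtain rfl : β = γ := Subtype.ext (toSet_injective β.2 γ.2 hset)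
    exact sameBlock_refl _
  have hne : ∀ g : Equiv.Perm X, g.support.card = p * v → g.support.Nonempty := fun g hg =>
    card_pos.1 (by rw [hg]; exact Nat.mul_pos hp.pos hv0)
  obtain ⟨a, ha⟩ := hne g₁ hgc₁
  set t := g₁.cycleOf a with htdef
  have ht : t.IsCycle := Equiv.Perm.isCycle_cycleOf g₁ (Equiv.Perm.mem_support.1 ha)
  have htp : t.support.card = p := by
    refine Multiset.eq_of_mem_replicate (n := Multiset.card g₁.cycleType) ?_
    rw [← Equiv.Perm.cycleType_of_pow_prime_eq_one hg₁, Equiv.Perm.cycleType_def]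
    exact Multiset.mem_map.2 ⟨t, Equiv.Perm.cycleOf_mem_cycleFactorsFinset_iff.2 ha, rfl⟩
  have hcard : Fintype.card {a // a ∉ t.support} < Fintype.card X := by
    rw [Fintype.card_subtype_compl, Fintype.card_coe, htp]
    have := hp.pos
    have := Fintype.card_pos_iff.2 (⟨a⟩ : Nonempty X)
    omega
  have hIH := ih _ hcard {a // a ∉ t.support} rfl (hcard.le.trans hN)
  have hind : ∀ δ : {β : Fin N → ℤ // IsBeta X β}, ∀ {χ : IrrCharacter (Equiv.Perm X)}
      {g : Equiv.Perm X}, keyOf p δ.1 = keyOf p β.1 →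
      χ ∈ blockOf M (irrOf δ : Equiv.Perm X → ℂ) → g ^ p = 1 → g.support.card = p * v →
      (χ : Equiv.Perm X → ℂ) g ≠ 0 →
      ∃ γ' : {γ : Fin N → ℤ // IsBeta {a // a ∉ t.support} γ}, keyOf p γ'.1 = keyOf p β.1 ∧
        IsInducedBlock M (Subgroup.centralizer ({t} : Set (Equiv.Perm X)))
          (blockOf M (inflOf t γ' : Subgroup.centralizer ({t} : Set (Equiv.Perm X)) → ℂ))
          (blockOf M (irrOf δ : Equiv.Perm X → ℂ)) := by
    intro δ χ g hkδ hχ hg hgc hχg
    have hB : IsPBlock M (blockOf M (irrOf δ : Equiv.Perm X → ℂ)) := ⟨_, rfl⟩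
    obtain ⟨χ', hχ', y, hy, hχy⟩ :=
      exists_regular_section_ne_zero hM hB hχ hg (hne g hgc) hχg ht htp
    obtain ⟨K, hK⟩ := exists_key_of_block (N := N) hN p hM hB
    obtain ⟨δ₀, hk₀, hδ₀⟩ := hK (irrOf δ) (self_mem_blockOf _)
    obtain rfl := (irrOf_bijective hN).1 hδ₀
    obtain ⟨δ', hk', rfl⟩ := hK χ' hχ'
    obtain ⟨γ', hkγ', h⟩ := exists_isInducedBlock hM ht htp hB hχ' hy hχy hIH
    exact ⟨γ', hkγ'.trans (hk'.trans (hk₀.symm.trans hkδ)), h⟩
  obtain ⟨γ₁, hk₁, hi₁⟩ := hind β rfl hχ₁ hg₁ hgc₁ hne₁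
  obtain ⟨γ₂, hk₂, hi₂⟩ := hind γ hk.symm hχ₂ hg₂ hgc₂ hne₂
  have e : blockOf M (inflOf t γ₁ : Subgroup.centralizer ({t} : Set (Equiv.Perm X)) → ℂ) =
      blockOf M (inflOf t γ₂ : Subgroup.centralizer ({t} : Set (Equiv.Perm X)) → ℂ) :=
    blockOf_eq_of_sameBlock (sameBlock_comp_of_surjective (restProj t) (restProj_surjective t)
      (hIH γ₁ γ₂ (hk₁.trans hk₂.symm)))
  rw [← e] at hi₂
  have hBB := isInducedBlock_unique hM hi₁ hi₂
  have hmem : irrOf γ ∈ blockOf M (irrOf β : Equiv.Perm X → ℂ) := hBB ▸ self_mem_blockOf (irrOf γ)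
  exact hmem

/-- The characters of one key form one block. -/
theorem mem_of_keyOf [Fact p.Prime] (hN : Fintype.card X ≤ N) {M : Ideal AlgInt}
    (hM : IsPModular p M) {B : Set (IrrCharacter (Equiv.Perm X))} (hB : IsPBlock M B)
    {K : ℤ → ℕ}
    (hK : ∀ χ ∈ B, ∃ β : {β : Fin N → ℤ // IsBeta X β}, keyOf p β.1 = K ∧ irrOf β = χ)
    (β : {β : Fin N → ℤ // IsBeta X β}) (hβ : keyOf p β.1 = K) : irrOf β ∈ B := by
  have := isMaximal_of_isPModular hM
  obtain ⟨χ₀, hχ₀⟩ := nonempty_of_isPBlock hB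
  obtain ⟨β₀, hk₀, rfl⟩ := hK χ₀ hχ₀
  rw [eq_blockOf_of_mem hB hχ₀]
  exact sameBlock_of_keyOf hN hM β₀ β (hk₀.trans hβ.symm)

end CfsgLib.SymBlocks
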