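import Mathlib
import Cfsg.Agent.SymSylow.Monomial
import Cfsg.Agent.PGroup.Normal
import Cfsg.Agent.Chars.Induced.Gallagher
import Cfsg.Agent.Chars.Basic.Kernel
import Cfsg.Agent.Chars.Basic.Linear

/-!
# Characters of degree `p` of Sylow subgroups of symmetric and alternating groups

Inside the model `(I × ZMod p) ⊕ R` a Sylow subgroup is a wreath product `wr Q`; a linear
character of a subgroup of index `p`, summing the translation parts over an orbit, induces
irreducibly.
-/

set_option autoImplicit false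
set_option linter.style.haveILetI false

namespace CfsgLib.SymBlocks.SylowChar

open Equiv CfsgLib.SymSylow.Mono

/-- Irreducible induction of a linear character from a normal subgroup of prime index. -/
theorem exists_degree_of_linear {G : Type} [Group G] [Finite G] {p : ℕ} (hp : p.Prime)
    (N : Subgroup G) [N.Normal] (hN : N.index = p) (l : N →* ℂˣ) (g : G) (n n' : N)
    (hn : (n' : G) = g * n * g⁻¹) (hl : l n' ≠ l n) :
    ∃ φ : Cfsg.IrrCharacter G, Cfsg.charDegree (φ : G → ℂ) = p := by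
  classical
  haveI := Fintype.ofFinite G
  haveI := Fintype.ofFinite N
  set θ : Cfsg.IrrCharacter N := Chars.linChar l with hθ
  have hval : ∀ m : N, (θ : N → ℂ) m = (l m : ℂ) := fun m => by simp [hθ]
  have hI : Chars.Induced.inertia N (θ : N → ℂ) = N := by
    refine le_antisymm (fun x hx => ?_) (Chars.Induced.le_inertia (Chars.isClassFunction_coe θ))
    by_contra hxN
    have hle : N ≤ Chars.Induced.inertia N (θ : N → ℂ) :=
      Chars.Induced.le_inertia (Chars.isClassFunction_coe θ)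
    have h1 : (Chars.Induced.inertia N (θ : N → ℂ)).index = 1 := by
      have hd := Subgroup.index_dvd_of_le hle
      rw [hN] at hd
      rcases (Nat.dvd_prime hp).mp hd with h | h
      · exact h
      · exfalso
        have h2 := Subgroup.relIndex_mul_index hle
        rw [hN, h, Nat.mul_eq_right hp.ne_zero, Subgroup.relIndex_eq_one] at h2
        exact hxN (h2 hx)
    have h3 : g ∈ Chars.Induced.inertia N (θ : N → ℂ) :=
      (Subgroup.index_eq_one.mp h1).ge (Subgroup.mem_top g)
    have h4 := Chars.Induced.mem_inertia_iff_forall.mp h3 n n' hn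
    rw [hval, hval] at h4
    exact hl (Units.ext h4)
  refine ⟨⟨_, Chars.Induced.isIrrCharacter_indFun_normal θ hI⟩, ?_⟩
  show ⌊(Cfsg.indFun N (θ : N → ℂ) 1).re⌋₊ = p
  rw [Chars.Induced.indFun_one_apply, hN, hval]
  simp

/-- A nontrivial `p`-group of permutations moves some orbit of a subgroup of index `p`. -/
theorem exists_block {I : Type} [Finite I] {p : ℕ} [Fact p.Prime] (Q : Subgroup (Perm I))
    (hQ : IsPGroup p Q) (hne : Q ≠ ⊥) :
    ∃ (U : Subgroup Q) (σ : Q) (o : I) (S : Set I), U.Normal ∧ U.index = p ∧ σ ∉ U ∧ o ∈ S ∧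
      (σ : Perm I) o ∉ S ∧ (∀ v ∈ U, ∀ i, (v : Perm I) i ∈ S ↔ i ∈ S) ∧
      (∀ i ∈ S, ∃ v ∈ U, (v : Perm I) o = i) := by
  obtain ⟨q, hqQ, hq1⟩ := (Subgroup.bot_or_exists_ne_one Q).resolve_left hne
  obtain ⟨o, ho⟩ : ∃ o, q o ≠ o := by
    by_contra h
    push Not at h
    exact hq1 (Equiv.ext h)
  have hst : MulAction.stabilizer Q o ≠ ⊤ := fun h => ho
    (MulAction.mem_stabilizer_iff.mp (h.ge (Subgroup.mem_top (⟨q, hqQ⟩ : Q))))
  obtain ⟨U, hU, hUi, hUn⟩ := PGroup.exists_index_eq_ge hQ hst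
  obtain ⟨σ, hσ⟩ : ∃ σ : Q, σ ∉ U := by
    by_contra h
    push Not at h
    rw [(Subgroup.eq_top_iff' U).mpr h, Subgroup.index_top] at hUi
    exact (Fact.out : p.Prime).one_lt.ne hUi
  refine ⟨U, σ, o, {i | ∃ v ∈ U, (v : Perm I) o = i}, hUn, hUi, hσ, ⟨1, one_mem U, rfl⟩, ?_, ?_,
    fun i hi => hi⟩
  · rintro ⟨v, hv, hvo⟩
    refine hσ ?_
    have h1 : v⁻¹ * σ ∈ MulAction.stabilizer Q o := MulAction.mem_stabilizer_iff.mpr (by
      show (v : Perm I)⁻¹ ((σ : Perm I) o) = o
      rw [← hvo]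
      simp)
    have := mul_mem hv (hU h1)
    rwa [mul_inv_cancel_left] at this
  · intro v hv i
    constructor
    · rintro ⟨w, hw, he⟩
      exact ⟨v⁻¹ * w, mul_mem (inv_mem hv) hw, by simp [he]⟩
    · rintro ⟨w, hw, he⟩
      exact ⟨v * w, mul_mem hv hw, by simp [he]⟩

variable {p : ℕ} [Fact p.Prime] {I R : Type}

/-- The block permutation of an element of a subgroup of `wr Q`. -/
theorem exists_proj {Q : Subgroup (Perm I)} (K : Subgroup (Perm (I × ZMod p ⊕ R))) (hK : K ≤ wr Q) :
    ∃ θ : K →* Q, ∀ (x : K) (π : Perm I) (b : I → ZMod p),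
      (x : Perm (I × ZMod p ⊕ R)) = mo π 1 b → (θ x : Perm I) = π := by
  choose π hπ b hb using fun x : K => mem_wr.mp (hK x.2)
  refine ⟨MonoidHom.mk' (fun x => ⟨π x, hπ x⟩) fun x y => Subtype.ext ?_, fun x π' b' h => ?_⟩
  · have h := hb (x * y)
    rw [Subgroup.coe_mul, hb x, hb y, mo_one_one_mul] at h
    exact (mo_inj h).1.symm
  · rw [hb x] at h
    exact (mo_inj h).1

/-- The engine: a translation whose sums over a block and over a moved block differ. -/
theorem exists_degree_of_translation [Finite I] [Finite R] (Q : Subgroup (Perm I))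
    (K : Subgroup (Perm (I × ZMod p ⊕ R))) (hK : K ≤ wr Q) (U : Subgroup Q) [U.Normal]
    (hUi : U.index = p) (σ : Q) (hσ : σ ∉ U) (S : Finset I)
    (hS : ∀ v ∈ U, ∀ i, (v : Perm I) i ∈ S ↔ i ∈ S) (b : I → ZMod p)
    (hg : mo (R := R) (σ : Perm I) 1 b ∈ K) (c : I → ZMod p) (hc : mo (R := R) 1 1 c ∈ K)
    (hne : ∑ i ∈ S, c ((σ : Perm I)⁻¹ i) ≠ ∑ i ∈ S, c i) :
    ∃ φ : Cfsg.IrrCharacter K, Cfsg.charDegree (φ : K → ℂ) = p := by
  classical
  have hp : p.Prime := Fact.out
  haveI : NeZero p := ⟨hp.ne_zero⟩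
  obtain ⟨θ, hθ⟩ := exists_proj K hK
  set g : K := ⟨_, hg⟩ with hgd
  have hθg : θ g = σ := Subtype.ext (hθ g _ b rfl)
  set N : Subgroup K := U.comap θ with hN
  haveI : N.Normal := Subgroup.Normal.comap inferInstance θ
  have hNi : N.index = p := by
    have hd : N.index ∣ p := by
      rw [hN, Subgroup.index_comap]
      exact (Subgroup.relIndex_dvd_index_of_normal U θ.range).trans hUi.dvd
    rcases (Nat.dvd_prime hp).mp hd with h | h
    · exfalso
      have := (Subgroup.index_eq_one.mp h).ge (Subgroup.mem_top g)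
      rw [hN, Subgroup.mem_comap, hθg] at this
      exact hσ this
    · exact h
  choose π hπ e he using fun x : K => mem_wr.mp (hK x.2)
  have hsum : ∀ (x : K) (π' : Perm I) (e' : I → ZMod p),
      (x : Perm (I × ZMod p ⊕ R)) = mo π' 1 e' → e x = e' := fun x π' e' h => by
    rw [he x] at h
    exact (mo_inj h).2
  let χ : Multiplicative (ZMod p) →* ℂˣ := (ZMod.stdAddChar (N := p)).toMonoidHom.toHomUnits
  let s : N →* Multiplicative (ZMod p) := MonoidHom.mk'
    (fun x => Multiplicative.ofAdd (∑ i ∈ S, e (x : K) i)) fun x y => by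
    have h : ((x * y : N) : K).1 = mo (π (x : K) * π (y : K)) 1
        (fun i => e (y : K) i + e (x : K) (π (y : K) i)) := by
      rw [Subgroup.coe_mul, Subgroup.coe_mul, he (x : K), he (y : K), mo_one_one_mul]
    show Multiplicative.ofAdd _ = Multiplicative.ofAdd _ * Multiplicative.ofAdd _
    rw [hsum _ _ _ h, ← ofAdd_add, Finset.sum_add_distrib, add_comm]
    congr 2
    have hyU : θ (y : K) ∈ U := y.2
    have hyπ : (θ (y : K) : Perm I) = π (y : K) := hθ _ _ _ (he _)
    refine Finset.sum_equiv (π (y : K)) (fun i => ?_) fun i _ => rfl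
    rw [← hyπ]
    exact (hS _ hyU i).symm
  set n : K := ⟨_, hc⟩ with hnd
  have hnN : n ∈ N := by
    rw [hN, Subgroup.mem_comap, show θ n = 1 from Subtype.ext (hθ n _ c rfl)]
    exact one_mem U
  set n' : N := ⟨g * n * g⁻¹, (inferInstance : N.Normal).conj_mem n hnN g⟩ with hn'd
  refine exists_degree_of_linear hp N hNi (χ.comp s) g ⟨n, hnN⟩ n' rfl fun h => hne ?_
  have he' : e (n' : K) = fun i => c ((σ : Perm I)⁻¹ i) := by
    refine hsum _ 1 _ ?_
    show mo (σ : Perm I) 1 b * mo 1 1 c * (mo (σ : Perm I) 1 b)⁻¹ = _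
    rw [mul_inv_eq_iff_eq_mul, mo_one_one_mul, mo_one_one_mul, mul_one, one_mul]
    congr 1
    funext i
    simp [add_comm]
  have h1 : (ZMod.stdAddChar (N := p)) (∑ i ∈ S, e (n' : K) i) =
      (ZMod.stdAddChar (N := p)) (∑ i ∈ S, e n i) := congrArg Units.val h
  have h2 := ZMod.injective_stdAddChar h1
  rwa [he', hsum n 1 c rfl] at h2

/-- Degree `p` through a surjection. -/
theorem exists_degree_of_surjective {G H : Type} [Group G] [Group H] (f : G →* H)
    (hf : Function.Surjective f)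
    (h : ∃ φ : Cfsg.IrrCharacter H, Cfsg.charDegree (φ : H → ℂ) = p) :
    ∃ φ : Cfsg.IrrCharacter G, Cfsg.charDegree (φ : G → ℂ) = p := by
  obtain ⟨φ, hφ⟩ := h
  refine ⟨⟨_, Chars.isIrrCharacter_comp φ.2 f hf⟩, ?_⟩
  show ⌊((φ : H → ℂ) (f 1)).re⌋₊ = p
  rw [map_one]
  exact hφ

/-- A Sylow subgroup of a permutation group of degree at least `p` is nontrivial. -/
theorem sylow_ne_bot [Finite I] (hw : p ≤ Nat.card I) (Q : Sylow p (Perm I)) :
    (Q : Subgroup (Perm I)) ≠ ⊥ := by
  refine Q.ne_bot_of_dvd_card ?_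
  rw [Nat.card_perm]
  exact (Nat.Prime.dvd_factorial Fact.out).mpr hw

/-- The wreath product of `ZMod p` by a Sylow subgroup has a character of degree `p`. -/
theorem exists_degree_wr [Finite I] [Finite R] (hw : p ≤ Nat.card I) (Q : Sylow p (Perm I)) :
    ∃ φ : Cfsg.IrrCharacter (wr (R := R) (p := p) (Q : Subgroup (Perm I))),
      Cfsg.charDegree (φ : wr (R := R) (p := p) (Q : Subgroup (Perm I)) → ℂ) = p := by
  classical
  obtain ⟨U, σ, o, S, hUn, hUi, hσ, ho, hσo, hS, -⟩ :=
    exists_block (Q : Subgroup (Perm I)) Q.2 (sylow_ne_bot hw Q)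
  haveI := hUn
  refine exists_degree_of_translation (Q : Subgroup (Perm I)) _ le_rfl U hUi σ hσ
    (Set.toFinite S).toFinset
    (fun v hv i => by simpa only [Set.Finite.mem_toFinset] using hS v hv i) 0 (mo_mem_wr σ.2 0)
    (Pi.single o 1) (trans_mem_wr _ _) ?_
  have h1 : ∀ i ∈ (Set.toFinite S).toFinset, (Pi.single o 1 : I → ZMod p) ((σ : Perm I)⁻¹ i) = 0 :=
    fun i hi => Pi.single_eq_of_ne (fun e => hσo (by
      rw [← e]
      simpa using hi)) _
  rw [Finset.sum_eq_zero h1, Finset.sum_pi_single', if_pos (by simpa using ho)]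
  exact zero_ne_one

/-- A Sylow subgroup of a symmetric group of degree at least `p * p` has a character of degree
`p`. -/
theorem exists_degree_sylow_perm {X : Type} [Finite X] (hw : p ≤ Nat.card X / p)
    (P : Sylow p (Perm X)) :
    ∃ φ : Cfsg.IrrCharacter ↥(P : Subgroup (Perm X)),
      Cfsg.charDegree (φ : ↥(P : Subgroup (Perm X)) → ℂ) = p := by
  have hp : p.Prime := Fact.out
  obtain ⟨e⟩ := exists_equiv_model p X
  obtain ⟨Q⟩ : Nonempty (Sylow p (Perm (Fin (Nat.card X / p)))) := inferInstance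
  obtain ⟨H, hH⟩ := exists_sylow_eq_wr (R := Fin (Nat.card X % p))
    (by rw [Nat.card_fin]; exact Nat.mod_lt _ hp.pos) Q
  set H' : Sylow p (Perm X) :=
    H.mapSurjective (f := e.permCongrHom.toMonoidHom) e.permCongrHom.surjective with hH'
  have e1 : ↥(H : Subgroup (Perm (Fin (Nat.card X / p) × ZMod p ⊕ Fin (Nat.card X % p)))) ≃*
      ↥(H' : Subgroup (Perm X)) :=
    ((H : Subgroup _).equivMapOfInjective e.permCongrHom.toMonoidHom e.permCongrHom.injective).trans
      (MulEquiv.subgroupCongr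
        (Sylow.coe_mapSurjective (f := e.permCongrHom.toMonoidHom) e.permCongrHom.surjective H).symm)
  have e2 : (P : Subgroup (Perm X)) ≃* wr (R := Fin (Nat.card X % p)) (p := p)
      (Q : Subgroup (Perm (Fin (Nat.card X / p)))) :=
    ((P.equiv H').trans e1.symm).trans (MulEquiv.subgroupCongr hH)
  exact exists_degree_of_surjective e2.toMonoidHom e2.surjective
    (exists_degree_wr (by rwa [Nat.card_fin]) Q)

/-- An isomorphism from a Sylow subgroup of an alternating group to the even part of the model. -/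
theorem exists_alt_iso {X : Type} [Fintype X] [DecidableEq X]
    (P : Sylow p (alternatingGroup X)) :
    ∃ Q : Sylow p (Perm (Fin (Nat.card X / p))),
      Nonempty ((P : Subgroup (alternatingGroup X)) ≃*
        ↥(wr (R := Fin (Nat.card X % p)) (p := p) (Q : Subgroup (Perm (Fin (Nat.card X / p)))) ⊓
          alternatingGroup (Fin (Nat.card X / p) × ZMod p ⊕ Fin (Nat.card X % p)))) := by
  have hp : p.Prime := Fact.out
  haveI : NeZero p := ⟨hp.ne_zero⟩
  obtain ⟨e⟩ := exists_equiv_model p X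
  obtain ⟨Q⟩ : Nonempty (Sylow p (Perm (Fin (Nat.card X / p)))) := inferInstance
  obtain ⟨H, hH⟩ := exists_sylow_eq_wr (R := Fin (Nat.card X % p))
    (by rw [Nat.card_fin]; exact Nat.mod_lt _ hp.pos) Q
  obtain ⟨P', hP'⟩ := Sylow.exists_comap_subtype_eq P
  set H' : Sylow p (Perm X) :=
    H.mapSurjective (f := e.permCongrHom.toMonoidHom) e.permCongrHom.surjective with hH'
  obtain ⟨g, hg⟩ := MulAction.exists_smul_eq (Perm X) H' P'
  set φ := e.permCongrHom.trans (MulAut.conj g) with hφ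
  have hsign : ∀ x, Perm.sign (φ x) = Perm.sign x := by
    intro x
    rw [hφ, MulEquiv.trans_apply, MulAut.conj_apply, map_mul, map_mul, map_inv,
      mul_inv_cancel_comm]
    exact Perm.sign_permCongr e x
  have hmap : (wr (R := Fin (Nat.card X % p)) (p := p)
      (Q : Subgroup (Perm (Fin (Nat.card X / p)))) ⊓
        alternatingGroup (Fin (Nat.card X / p) × ZMod p ⊕ Fin (Nat.card X % p))).map
          φ.toMonoidHom = (P : Subgroup (alternatingGroup X)).map (alternatingGroup X).subtype := by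
    rw [← hH, ← hP', Subgroup.map_comap_eq, Subgroup.range_subtype, ← hg, hH']
    ext y
    constructor
    · rintro ⟨x, ⟨hx, hxa⟩, rfl⟩
      refine ⟨Perm.mem_alternatingGroup.mpr (by
        rw [MulEquiv.coe_toMonoidHom, hsign, Perm.mem_alternatingGroup.mp hxa]), ?_⟩
      exact ⟨e.permCongrHom x, ⟨x, hx, rfl⟩, rfl⟩
    · rintro ⟨hya, z, ⟨x, hx, rfl⟩, rfl⟩
      refine ⟨x, ⟨hx, Perm.mem_alternatingGroup.mpr ?_⟩, rfl⟩
      rw [← hsign]
      exact Perm.mem_alternatingGroup.mp hya
  exact ⟨Q, ⟨((P : Subgroup (alternatingGroup X)).equivMapOfInjective _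
    (Subgroup.subtype_injective _)).trans ((MulEquiv.subgroupCongr hmap.symm).trans
      (Subgroup.equivMapOfInjective _ _ φ.injective).symm)⟩⟩

theorem wr_isPGroup [Finite I] [Finite R] (hR : Nat.card R < p) (Q : Sylow p (Perm I)) :
    IsPGroup p (wr (R := R) (p := p) (Q : Subgroup (Perm I))) := by
  obtain ⟨H, hH⟩ := exists_sylow_eq_wr hR Q
  rw [← hH]
  exact H.2

variable [DecidableEq I] [DecidableEq R] [Fintype I] [Fintype R] [NeZero p]

theorem wr_le_alternating (hp2 : p ≠ 2) (hR : Nat.card R < p) (Q : Sylow p (Perm I)) :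
    wr (R := R) (p := p) (Q : Subgroup (Perm I)) ≤ alternatingGroup (I × ZMod p ⊕ R) := by
  intro x hx
  obtain ⟨k, hk⟩ := wr_isPGroup hR Q ⟨x, hx⟩
  exact Perm.mem_alternatingGroup.mpr (sign_eq_one_of_pow_odd
    (((Fact.out : p.Prime).odd_of_ne_two hp2).pow) (congrArg Subtype.val hk))

theorem sign_single (hp2 : p = 2) (o : I) :
    Perm.sign (mo (R := R) (p := p) 1 1 (Pi.single o 1)) = -1 := by
  refine Perm.IsSwap.sign_eq (Perm.card_support_eq_two.mp ?_)
  have h1 : (Finset.univ.filter fun i => (Pi.single o 1 : I → ZMod p) i ≠ 0) = {o} := by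
    ext i
    by_cases hi : i = o
    · subst hi; simp
    · simp [hi]
  rw [card_support_trans, h1, Finset.card_singleton, mul_one, hp2]

/-- Every block permutation of `Q` occurs in an even element. -/
theorem exists_even_lift (hp2 : p = 2) {Q : Subgroup (Perm I)} (o : I) (π : Q) :
    ∃ b : I → ZMod p, mo (R := R) (π : Perm I) 1 b ∈ wr Q ⊓ alternatingGroup (I × ZMod p ⊕ R) := by
  rcases Int.units_eq_one_or (Perm.sign (mo (R := R) (p := p) (π : Perm I) 1 0)) with h | h
  · exact ⟨0, mo_mem_wr π.2 0, Perm.mem_alternatingGroup.mpr h⟩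
  · refine ⟨Pi.single o 1, mo_mem_wr π.2 _, Perm.mem_alternatingGroup.mpr ?_⟩
    rw [mo_split, map_mul, h, sign_single hp2]
    decide

theorem exists_degree_wr_alt (h : (p ≠ 2 ∧ p ≤ Nat.card I) ∨ (p = 2 ∧ 3 ≤ Nat.card I))
    (hR : Nat.card R < p) (Q : Sylow p (Perm I)) :
    ∃ φ : Cfsg.IrrCharacter
        ↥(wr (R := R) (p := p) (Q : Subgroup (Perm I)) ⊓ alternatingGroup (I × ZMod p ⊕ R)),
      Cfsg.charDegree (φ : ↥(wr (R := R) (p := p) (Q : Subgroup (Perm I)) ⊓
        alternatingGroup (I × ZMod p ⊕ R)) → ℂ) = p := by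
  rcases h with ⟨hp2, hw⟩ | ⟨hp2, hw⟩
  · let e2 := MulEquiv.subgroupCongr (inf_eq_left.mpr (wr_le_alternating hp2 hR Q))
    exact exists_degree_of_surjective e2.toMonoidHom e2.surjective (exists_degree_wr hw Q)
  · set K := wr (R := R) (p := p) (Q : Subgroup (Perm I)) ⊓ alternatingGroup (I × ZMod p ⊕ R)
      with hK
    rcases Nat.lt_or_ge (Nat.card I) 4 with h4 | h4
    · -- three blocks, one of them fixed by `Q`
      obtain ⟨U, σ, o, S, hUn, hUi, hσ, ho, hσo, hS, hSo⟩ :=
        exists_block (Q : Subgroup (Perm I)) Q.2 (sylow_ne_bot (by omega) Q)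
      haveI := hUn
      obtain ⟨j, hj⟩ := Q.2.nonempty_fixed_point_of_prime_not_dvd_card I (by rw [hp2]; omega)
      have hjf : ∀ v : (Q : Subgroup (Perm I)), (v : Perm I) j = j := fun v => hj v
      have hjo : o ≠ j := fun e => hσo (by rw [e, hjf, ← e]; exact ho)
      have hjS : j ∉ S := by
        intro hjS
        obtain ⟨v, -, hv⟩ := hSo j hjS
        exact hjo ((v : Perm I).injective (hv.trans (hjf v).symm))
      obtain ⟨b, hb⟩ := exists_even_lift (R := R) hp2 o σ
      refine exists_degree_of_translation (Q : Subgroup (Perm I)) K inf_le_left U hUi σ hσ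
        (Set.toFinite S).toFinset
        (fun v hv i => by simpa only [Set.Finite.mem_toFinset] using hS v hv i) b hb
        (Pi.single o 1 + Pi.single j 1) ⟨trans_mem_wr _ _, Perm.mem_alternatingGroup.mpr ?_⟩ ?_
      · rw [← mo_trans_mul, map_mul, sign_single hp2, sign_single hp2]
        decide
      have hσj : (σ : Perm I) j = j := hjf σ
      have h1 : ∀ i ∈ (Set.toFinite S).toFinset,
          (Pi.single o 1 + Pi.single j 1 : I → ZMod p) ((σ : Perm I)⁻¹ i) = 0 := by
        intro i hi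
        rw [Set.Finite.mem_toFinset] at hi
        rw [Pi.add_apply, Pi.single_eq_of_ne (fun e => hσo (by rw [← e]; simpa using hi)),
          Pi.single_eq_of_ne (fun e => hjS (by rw [← hσj, ← e]; simpa using hi)), add_zero]
      rw [Finset.sum_eq_zero h1]
      have h2 : (∑ i ∈ (Set.toFinite S).toFinset,
          (Pi.single o 1 + Pi.single j 1 : I → ZMod p) i) = 1 := by
        simp only [Pi.add_apply, Finset.sum_add_distrib, Finset.sum_pi_single',
          Set.Finite.mem_toFinset]
        rw [if_pos (by simpa using ho), if_neg (by simpa using hjS), add_zero]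
      rw [h2]
      exact zero_ne_one
    · -- enough blocks: inflate from `Q`
      obtain ⟨θ, hθ⟩ := exists_proj (Q := (Q : Subgroup (Perm I))) K inf_le_left
      obtain ⟨o⟩ : Nonempty I := (Nat.card_pos_iff.mp (by omega)).1
      refine exists_degree_of_surjective θ (fun π => ?_)
        (exists_degree_sylow_perm (by rw [hp2]; omega) Q)
      obtain ⟨b, hb⟩ := exists_even_lift (R := R) hp2 o π
      exact ⟨⟨_, hb⟩, Subtype.ext (hθ _ _ b rfl)⟩

theorem wr_alt_comm (h : (p ≠ 2 ∧ Nat.card I < p) ∨ (p = 2 ∧ Nat.card I ≤ 2))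
    (hR : Nat.card R < p) (Q : Sylow p (Perm I)) :
    IsMulCommutative
      ↥(wr (R := R) (p := p) (Q : Subgroup (Perm I)) ⊓ alternatingGroup (I × ZMod p ⊕ R)) := by
  set K := wr (R := R) (p := p) (Q : Subgroup (Perm I)) ⊓ alternatingGroup (I × ZMod p ⊕ R) with hK
  by_cases hQ : (Q : Subgroup (Perm I)) = ⊥
  · refine ⟨⟨fun x y => Subtype.ext ?_⟩⟩
    obtain ⟨π, hπ, b, hb⟩ := mem_wr.mp x.2.1
    obtain ⟨π', hπ', b', hb'⟩ := mem_wr.mp y.2.1
    rw [hQ, Subgroup.mem_bot] at hπ hπ'
    rw [Subgroup.coe_mul, Subgroup.coe_mul, hb, hb', hπ, hπ', mo_trans_mul, mo_trans_mul, add_comm]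
  · rcases h with ⟨-, hw⟩ | ⟨hp2, hw⟩
    · refine absurd ?_ hQ
      rw [← Subgroup.card_eq_one, Q.card_eq_multiplicity, Nat.card_perm,
        Nat.factorization_eq_zero_of_not_dvd, pow_zero]
      exact fun hd => hw.not_ge ((Nat.Prime.dvd_factorial Fact.out).mp hd)
    · obtain ⟨o⟩ : Nonempty I := by
        by_contra hne
        rw [not_nonempty_iff] at hne
        exact hQ ((Subgroup.eq_bot_iff_forall _).mpr fun g _ => Subsingleton.elim _ _)
      have hlt : K < wr (R := R) (p := p) (Q : Subgroup (Perm I)) := by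
        refine lt_of_le_of_ne inf_le_left fun he => ?_
        have h1 : mo (R := R) (p := p) 1 1 (Pi.single o 1) ∈ K := he.symm ▸ trans_mem_wr _ _
        have h2 := Perm.mem_alternatingGroup.mp h1.2
        rw [sign_single hp2] at h2
        exact absurd h2 (by decide)
      obtain ⟨k, hk⟩ := IsPGroup.iff_card.mp ((wr_isPGroup hR Q).to_le (inf_le_left : K ≤ _))
      have hK8 : Nat.card K < 8 := by
        refine lt_of_lt_of_le ?_ (?_ : Nat.card (wr (R := R) (p := p) (Q : Subgroup (Perm I))) ≤ 8)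
        · by_contra hge
          exact hlt.ne (Subgroup.eq_of_le_of_card_ge hlt.le (not_lt.mp hge))
        · rw [card_wr, Nat.card_fun, Nat.card_zmod]
          have h1 : Nat.card (Q : Subgroup (Perm I)) ≤ 2 := by
            refine (Subgroup.card_le_card_group _).trans ?_
            rw [Nat.card_perm]
            exact (Nat.factorial_le hw).trans_eq (by rfl)
          have h2 : p ^ Nat.card I ≤ 4 := (Nat.pow_le_pow_right (by omega) hw).trans_eq (by rw [hp2])
          calc Nat.card (Q : Subgroup (Perm I)) * p ^ Nat.card I ≤ 2 * 4 := Nat.mul_le_mul h1 h2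
            _ = 8 := by norm_num
      rw [hk, hp2] at hK8
      have hk3 : k < 3 := (Nat.pow_lt_pow_iff_right (le_refl 2)).mp (by simpa using hK8)
      interval_cases k
      · rw [pow_zero] at hk
        haveI : Subsingleton K := (Nat.card_eq_one_iff_unique.mp hk).1
        exact ⟨⟨fun x y => Subsingleton.elim _ _⟩⟩
      · rw [pow_one] at hk
        haveI := isCyclic_of_prime_card (α := K) (p := p) hk
        letI := IsCyclic.commGroup (α := K)
        exact ⟨⟨mul_comm⟩⟩
      · exact ⟨⟨(IsPGroup.isMulCommutative_of_card_eq_prime_sq (p := p) hk).1.1⟩⟩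

end CfsgLib.SymBlocks.SylowChar

namespace CfsgLib.SymBlocks

open SylowChar

variable {X : Type} [Fintype X] [DecidableEq X] {p : ℕ} [Fact p.Prime]

/-- Small defect: the Sylow subgroups of the alternating group are abelian. -/
theorem isMulCommutative_sylow_alt
    (h : (p ≠ 2 ∧ Fintype.card X / p < p) ∨ (p = 2 ∧ Fintype.card X / 2 ≤ 2))
    (P : Sylow p (alternatingGroup X)) :
    IsMulCommutative (P : Subgroup (alternatingGroup X)) := by
  have hp : p.Prime := Fact.out
  haveI : NeZero p := ⟨hp.ne_zero⟩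
  obtain ⟨Q, ⟨e⟩⟩ := exists_alt_iso P
  haveI := wr_alt_comm (R := Fin (Nat.card X % p)) (by
    rw [Nat.card_fin, Nat.card_eq_fintype_card]
    rcases h with h | ⟨h2, h⟩
    · exact Or.inl h
    · exact Or.inr ⟨h2, by rw [h2]; exact h⟩) (by rw [Nat.card_fin]; exact Nat.mod_lt _ hp.pos) Q
  exact ⟨⟨fun a b => e.injective (by rw [map_mul, map_mul]; exact mul_comm' _ _)⟩⟩

/-- Large defect: the Sylow subgroups of the alternating group have a character of degree `p`. -/
theorem exists_charDegree_prime_sylow_alt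
    (h : (p ≠ 2 ∧ p ≤ Fintype.card X / p) ∨ (p = 2 ∧ 3 ≤ Fintype.card X / 2))
    (P : Sylow p (alternatingGroup X)) :
    ∃ φ : Cfsg.IrrCharacter ↥(P : Subgroup (alternatingGroup X)),
      Cfsg.charDegree (φ : ↥(P : Subgroup (alternatingGroup X)) → ℂ) = p := by
  have hp : p.Prime := Fact.out
  haveI : NeZero p := ⟨hp.ne_zero⟩
  obtain ⟨Q, ⟨e⟩⟩ := exists_alt_iso P
  refine exists_degree_of_surjective e.toMonoidHom e.surjective
    (exists_degree_wr_alt (R := Fin (Nat.card X % p)) ?_
      (by rw [Nat.card_fin]; exact Nat.mod_lt _ hp.pos) Q)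
  rw [Nat.card_fin, Nat.card_eq_fintype_card]
  rcases h with h | ⟨h2, h⟩
  · exact Or.inl h
  · exact Or.inr ⟨h2, by rw [h2]; exact h⟩

end CfsgLib.SymBlocks
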