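import Cfsg.Agent.SymBlocks.HeightsAux
import Cfsg.Agent.SymBlocks.Degree
import Cfsg.Agent.SymBlocks.HookConfs
import Cfsg.Agent.SymBlocks.Nakayama
import Cfsg.Agent.SymBlocks.SylowChar

/-!
# Heights in the blocks of alternating groups
-/

set_option autoImplicit false
set_option linter.style.haveILetI false
set_option linter.unusedSectionVars false

open scoped Classical

namespace CfsgLib.SymBlocks

open Finset Cfsg CfsgLib.Chars CfsgLib.Chars.Induced CfsgLib.Blocks CfsgLib.Blocks.HeightZero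
  CfsgLib.AltBlocks69

variable {n p : ℕ}

/-- A defect group sitting on the fixed points of its defect class is a Sylow group of their
alternating group. -/
theorem exists_sylow_fixed [Fact p.Prime] {D : Subgroup (alternatingGroup (Fin n))}
    (x : alternatingGroup (Fin n))
    (P : Sylow p (Subgroup.centralizer ({x} : Set (alternatingGroup (Fin n)))))
    (hP : D = (P : Subgroup (Subgroup.centralizer ({x} : Set (alternatingGroup (Fin n))))).map
      (Subgroup.centralizer ({x} : Set (alternatingGroup (Fin n)))).subtype)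
    (F : Finset (Fin n)) (hxF : ∀ a ∈ F, (x : Equiv.Perm (Fin n)) a = a)
    (hDF : ∀ d ∈ D, ∀ a, a ∉ F → (d : Equiv.Perm (Fin n)) a = a) :
    ∃ Q : Sylow p (alternatingGroup {a // a ∈ F}),
      Nonempty (D ≃* (Q : Subgroup (alternatingGroup {a // a ∈ F}))) := by
  let φ : alternatingGroup {a // a ∈ F} →* alternatingGroup (Fin n) :=
    { toFun := fun g => ⟨Equiv.Perm.ofSubtype (g : Equiv.Perm {a // a ∈ F}), by
        rw [Equiv.Perm.mem_alternatingGroup, Equiv.Perm.sign_ofSubtype]
        exact Equiv.Perm.mem_alternatingGroup.1 g.2⟩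
      map_one' := Subtype.ext (by simp)
      map_mul' := fun g h => Subtype.ext (by simp) }
  have hφ : Function.Injective φ := fun g h e =>
    Subtype.ext (Equiv.Perm.ofSubtype_injective (congrArg Subtype.val e))
  have hrange : ∀ d ∈ D, d ∈ φ.range := by
    intro d hd
    have hinv : ∀ a, (d : Equiv.Perm (Fin n)) a ∈ F ↔ a ∈ F := by
      intro a
      by_cases ha : a ∈ F
      · refine iff_of_true ?_ ha
        by_contra h
        have := hDF d hd _ h
        exact h (by rw [(d : Equiv.Perm (Fin n)).injective this]; exact ha)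
      · rw [hDF d hd a ha]
    have hsub : Equiv.Perm.ofSubtype ((d : Equiv.Perm (Fin n)).subtypePerm hinv) =
        (d : Equiv.Perm (Fin n)) :=
      Equiv.Perm.ofSubtype_subtypePerm _ fun a ha => by
        by_contra h; exact ha (hDF d hd a h)
    refine ⟨⟨(d : Equiv.Perm (Fin n)).subtypePerm hinv, ?_⟩, Subtype.ext hsub⟩
    rw [Equiv.Perm.mem_alternatingGroup, ← Equiv.Perm.sign_ofSubtype, hsub]
    exact Equiv.Perm.mem_alternatingGroup.1 d.2
  have hcomm : ∀ g, φ g ∈ Subgroup.centralizer ({x} : Set (alternatingGroup (Fin n))) := by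
    intro g
    rw [Subgroup.mem_centralizer_singleton_iff]
    refine Subtype.ext (Equiv.Perm.Disjoint.commute fun a => ?_).eq
    by_cases ha : a ∈ F
    · exact Or.inr (hxF a ha)
    · exact Or.inl (Equiv.Perm.ofSubtype_apply_of_not_mem _ ha)
  have hpD : IsPGroup p D := by rw [hP]; exact P.isPGroup'.map _
  have hQ : IsPGroup p (D.comap φ) := hpD.comap_of_injective φ hφ
  have hmap : (D.comap φ).map φ = D := Subgroup.map_comap_eq_self fun d hd => hrange d hd
  let Q : Sylow p (alternatingGroup {a // a ∈ F}) :=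
    { toSubgroup := D.comap φ
      isPGroup' := hQ
      is_maximal' := fun {R} hR hle => by
        have hRC : R.map φ ≤ (Subgroup.centralizer ({x} : Set (alternatingGroup (Fin n)))) := by rintro _ ⟨g, -, rfl⟩; exact hcomm g
        have h1 : ((R.map φ).subgroupOf (Subgroup.centralizer ({x} : Set (alternatingGroup (Fin n))))) = (P : Subgroup (Subgroup.centralizer ({x} : Set (alternatingGroup (Fin n))))) := by
          refine P.is_maximal' ((hR.map φ).of_equiv (Subgroup.subgroupOfEquivOfLe hRC).symm) ?_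
          intro c hc
          rw [Subgroup.mem_subgroupOf]
          have : (c : alternatingGroup (Fin n)) ∈ D := by
            rw [hP]; exact Subgroup.mem_map.2 ⟨c, hc, rfl⟩
          rw [← hmap] at this
          exact Subgroup.map_mono hle this
        refine le_antisymm (fun g hg => Subgroup.mem_comap.2 ?_) hle
        rw [hP]
        have h2 : (⟨φ g, hcomm g⟩ : (Subgroup.centralizer ({x} : Set (alternatingGroup (Fin n))))) ∈ (R.map φ).subgroupOf (Subgroup.centralizer ({x} : Set (alternatingGroup (Fin n)))) :=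
          Subgroup.mem_subgroupOf.2 ⟨g, hg, rfl⟩
        rw [h1] at h2
        exact Subgroup.mem_map.2 ⟨⟨φ g, hcomm g⟩, h2, rfl⟩ }
  refine ⟨Q, ⟨?_⟩⟩
  exact ((D.comap φ).equivMapOfInjective φ hφ |>.trans (MulEquiv.subgroupCongr hmap)).symm

/-- With `p * (n + 3)` beads every runner carries at least two of them. -/
theorem two_le_key {X : Type} [Fintype X] (hp : 0 < p) (hX : Fintype.card X = n) {N : ℕ}
    (hN : N = p * (n + 3)) {β : Fin N → ℤ} (hβ : IsBeta X β) (r : ℕ) (hr : r < p) :
    2 ≤ natKey p β r := by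
  set s := toSet β with hs
  rw [← hasKey_toSet hβ.nonneg hβ.mono.injective r hr, ← hs]
  have hcard : s.card = N := card_toSet hβ.nonneg hβ.mono.injective
  have hsum : ∑ x ∈ s, x = n + ∑ x ∈ range N, x := by
    have h := sum_toSet hβ.nonneg hβ.mono.injective
    rw [hβ.sum_eq, hX, Fin.sum_univ_eq_sum_range (fun i : ℕ => (i : ℤ)), ← Nat.cast_sum,
      ← Nat.cast_add] at h
    exact_mod_cast h
  have hvac : (range N \ s).card ≤ n := by
    have h1 := sum_inter_add_sum_sdiff s (range N) (fun x => x)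
    have h2 := sum_inter_add_sum_sdiff (range N) s (fun x => x)
    rw [inter_comm] at h2
    have hk : (s \ range N).card = (range N \ s).card := by
      have h3 := card_sdiff_add_card_inter s (range N)
      have h4 := card_sdiff_add_card_inter (range N) s
      rw [inter_comm, card_range] at h4
      omega
    have h5 : (s \ range N).card * N ≤ ∑ x ∈ s \ range N, x := by
      refine le_trans (le_of_eq (by rw [sum_const, smul_eq_mul]))
        (sum_le_sum (f := fun _ => N) fun x hx => ?_)
      simpa using (mem_sdiff.1 hx).2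
    have h6 : ∑ x ∈ range N \ s, (x + 1) ≤ (range N \ s).card * N := by
      refine le_trans (sum_le_sum (g := fun _ => N) fun x hx => ?_) (le_of_eq ?_)
      · have := mem_range.1 (mem_sdiff.1 hx).1; omega
      · rw [sum_const, smul_eq_mul]
    rw [sum_add_distrib, ← card_eq_sum_ones] at h6
    rw [hk] at h5
    omega
  have hsub : ((range (n + 3)).image fun j => r + p * j) ⊆ Abacus.runner p s r ∪ (range N \ s) := by
    intro z hz
    obtain ⟨j, hj, rfl⟩ := mem_image.1 hz
    by_cases h : r + p * j ∈ s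
    · exact mem_union_left _ (mem_filter.2 ⟨h, by simp [Nat.mod_eq_of_lt hr]⟩)
    · refine mem_union_right _ (mem_sdiff.2 ⟨mem_range.2 ?_, h⟩)
      rw [hN]
      have h1 : p * j + p * 1 ≤ p * (n + 3) := by
        rw [← Nat.mul_add]; exact Nat.mul_le_mul_left p (mem_range.1 hj)
      omega
  have h := (card_le_card hsub).trans (card_union_le _ _)
  rw [card_image_of_injective _ (fun a b e => Nat.eq_of_mul_eq_mul_left hp (Nat.add_left_cancel e)),
    card_range] at h
  omega

/-- Multiplying by `-1` does not matter modulo a prime over `2`. -/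
theorem congr_neg_self [Fact p.Prime] {M : Ideal AlgInt} [M.IsMaximal] (hM : IsPModular p M)
    (hp2 : p = 2) {c : ℂ} (hc : MemLocalRing M c) : Congr M (-c) c := by
  have h2 : MemLocalIdeal M ((2 : ℕ) : ℂ) := (memLocalIdeal_natCast_iff hM 2).2 (hp2 ▸ dvd_rfl)
  have h := memLocalIdeal_neg (memLocalIdeal_mul_left hc h2)
  rw [Congr, show -c - c = -(c * ((2 : ℕ) : ℂ)) by push_cast; ring]
  exact h

variable {N : ℕ}

/-- The degree of the character at beta numbers. -/
theorem charDegree_irrOf {X : Type} [Fintype X] (β : {β : Fin N → ℤ // IsBeta X β}) :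
    charDegree (irrOf β : Equiv.Perm X → ℂ) = (chiB (1 : Equiv.Perm X) β.1).toNat := by
  refine charDegree_eq_of_map_one ?_
  rw [irrOf_eq_chiB]
  exact_mod_cast (Int.toNat_of_nonneg (chiB_one_pos β.2).le).symm

/-- A character vanishing on the odd permutations has a self-conjugate configuration. -/
theorem mirror_eq_of_vanish (hN : Fintype.card (Fin n) ≤ N)
    (β : {β : Fin N → ℤ // IsBeta (Fin n) β})
    (hv : ∀ g, g ∉ alternatingGroup (Fin n) → (irrOf β : Equiv.Perm (Fin n) → ℂ) g = 0) :
    Abacus.mirror N (toSet β.1) = toSet β.1 := by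
  have h : irrOf (⟨conjBeta β.1, isBeta_conjBeta hN β.2⟩ : {γ : Fin N → ℤ // IsBeta (Fin n) γ}) =
      irrOf β := by
    refine Subtype.ext (funext fun g => ?_)
    rw [irrOf_eq_chiB, irrOf_eq_chiB, ← sign_mul_chiB hN β.2 g]
    by_cases hg : g ∈ alternatingGroup (Fin n)
    · rw [sign_eq_one_of_mem hg]
      simp
    · have h0 := hv g hg
      rw [irrOf_eq_chiB] at h0
      rw [Int.cast_mul, h0, mul_zero]
  have h' : conjBeta β.1 = β.1 := congrArg Subtype.val ((irrOf_bijective hN).1 h)
  rw [← toSet_conjBeta hN β.2, h']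

theorem sign_of_notMem {g : Equiv.Perm (Fin n)} (hg : g ∉ alternatingGroup (Fin n))
    {i : DecidableEq (Fin n)} : @Equiv.Perm.sign (Fin n) i (Fin.fintype n) g = -1 := by
  obtain rfl : i = instDecidableEqFin n := Subsingleton.elim _ _
  exact (Int.units_eq_one_or _).resolve_left fun h => hg (Equiv.Perm.mem_alternatingGroup.2 h)

/-- A self-conjugate configuration gives a character vanishing on the odd permutations. -/
theorem vanish_of_conjBeta (hN : Fintype.card (Fin n) ≤ N)
    (β : {β : Fin N → ℤ // IsBeta (Fin n) β}) (hb : conjBeta β.1 = β.1) :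
    ∀ g, g ∉ alternatingGroup (Fin n) → (irrOf β : Equiv.Perm (Fin n) → ℂ) g = 0 := by
  intro g hg
  rw [irrOf_eq_chiB]
  have h := sign_mul_chiB hN β.2 g
  rw [hb, sign_of_notMem hg, Units.val_neg, Units.val_one] at h
  rw [show chiB g β.1 = 0 by omega, Int.cast_zero]

/-- For `p = 2` conjugate characters lie in one block. -/
theorem conjBeta_mem_block [Fact p.Prime] (hN : Fintype.card (Fin n) ≤ N) {M : Ideal AlgInt}
    (hM : IsPModular p M) (hp2 : p = 2) {B : Set (IrrCharacter (Equiv.Perm (Fin n)))}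
    (hB : IsPBlock M B) {β : {β : Fin N → ℤ // IsBeta (Fin n) β}} (hβ : irrOf β ∈ B) :
    irrOf (⟨conjBeta β.1, isBeta_conjBeta hN β.2⟩ : {γ : Fin N → ℤ // IsBeta (Fin n) γ}) ∈ B := by
  haveI := isMaximal_of_isPModular hM
  have hval : ∀ g : Equiv.Perm (Fin n),
      (irrOf (⟨conjBeta β.1, isBeta_conjBeta hN β.2⟩ : {γ : Fin N → ℤ // IsBeta (Fin n) γ}) :
        Equiv.Perm (Fin n) → ℂ) g = (irrOf β : Equiv.Perm (Fin n) → ℂ) g ∨
      (irrOf (⟨conjBeta β.1, isBeta_conjBeta hN β.2⟩ : {γ : Fin N → ℤ // IsBeta (Fin n) γ}) :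
        Equiv.Perm (Fin n) → ℂ) g = -(irrOf β : Equiv.Perm (Fin n) → ℂ) g := by
    intro g
    rw [irrOf_eq_chiB, irrOf_eq_chiB, ← sign_mul_chiB hN β.2 g]
    by_cases hg : g ∈ alternatingGroup (Fin n)
    · left; rw [sign_eq_one_of_mem hg]; simp
    · right; rw [sign_of_notMem hg]; simp
  have hone : (irrOf (⟨conjBeta β.1, isBeta_conjBeta hN β.2⟩ : {γ : Fin N → ℤ // IsBeta (Fin n) γ}) :
      Equiv.Perm (Fin n) → ℂ) 1 = (irrOf β : Equiv.Perm (Fin n) → ℂ) 1 := by
    rw [irrOf_eq_chiB, irrOf_eq_chiB, ← sign_mul_chiB hN β.2 1, map_one]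
    simp
  rw [eq_blockOf_of_mem hB hβ]
  intro g
  have hc := memLocalRing_centralChar (M := M) (irrOf β) g
  rcases hval g with h | h
  · simp only [centralChar, h, hone]
    exact congr_refl _
  · have e : centralChar (irrOf (⟨conjBeta β.1, isBeta_conjBeta hN β.2⟩ :
        {γ : Fin N → ℤ // IsBeta (Fin n) γ}) : Equiv.Perm (Fin n) → ℂ) g =
        -centralChar (irrOf β : Equiv.Perm (Fin n) → ℂ) g := by
      simp only [centralChar, h, hone]
      ring
    show MemLocalIdeal M _
    rw [e]
    exact (congr_neg_self hM hp2 hc).symm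

/-- The beta numbers of a configuration in the key class. -/
theorem exists_beta_of_conf [Fact p.Prime] (hN : Fintype.card (Fin n) ≤ N) {K : ℤ → ℕ} {w : ℕ}
    {β₀ : {β : Fin N → ℤ // IsBeta (Fin n) β}} (hk₀ : keyOf p β₀.1 = K)
    (hw₀ : ∑ x ∈ toSet β₀.1, x = Abacus.coreSum p (fun r : ℕ => K (r : ℤ)) + p * w)
    {s : Finset ℕ} (hs : Abacus.HasKey p (fun r : ℕ => K (r : ℤ)) s)
    (hsum : ∑ x ∈ s, x = Abacus.coreSum p (fun r : ℕ => K (r : ℤ)) + p * w) :
    ∃ β : {β : Fin N → ℤ // IsBeta (Fin n) β}, keyOf p β.1 = K ∧ toSet β.1 = s := by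
  have hp : 0 < p := (Fact.out : p.Prime).pos
  have hcard : ∀ t : Finset ℕ, Abacus.HasKey p (fun r : ℕ => K (r : ℤ)) t →
      t.card = ∑ r ∈ range p, K (r : ℤ) := fun t ht => by
    conv_lhs => rw [Abacus.eq_biUnion_runner hp t]
    rw [card_biUnion fun a _ b _ hab => disjoint_left.2 fun x hxa hxb =>
      hab ((mem_filter.1 hxa).2.symm.trans (mem_filter.1 hxb).2)]
    exact sum_congr rfl fun r hr => ht r (mem_range.1 hr)
  have hsN : s.card = N := by
    rw [hcard s hs, ← hcard _ (hasKey_of_keyOf β₀.2 hk₀)]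
    exact card_toSet β₀.2.nonneg β₀.2.mono.injective
  have hb : IsBeta (Fin n) (tupleOf N s) := by
    refine ⟨tupleOf_strictMono hsN, tupleOf_nonneg hsN, ?_⟩
    rw [← sum_toSet (tupleOf_nonneg hsN) (tupleOf_strictMono hsN).injective, toSet_tupleOf hsN,
      hsum, ← hw₀, sum_toSet β₀.2.nonneg β₀.2.mono.injective, β₀.2.sum_eq]
  refine ⟨⟨tupleOf N s, hb⟩, ?_, toSet_tupleOf hsN⟩
  rw [← hk₀]
  refine keyOf_eq_of_natKey fun r hr => ?_
  have h1 := hasKey_toSet (p := p) hb.nonneg hb.mono.injective r hr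
  rw [toSet_tupleOf hsN, hs r hr] at h1
  rw [← h1, ← hk₀]
  rfl

/-- Trivial group: every block is of height zero with commutative defect groups. -/
theorem alt_heights_small (hn : n < 2) (B : Set (IrrCharacter (alternatingGroup (Fin n))))
    (D : Subgroup (alternatingGroup (Fin n))) :
    (∀ χ : IrrCharacter (alternatingGroup (Fin n)), χ ∈ B →
      blockHeight p B (χ : alternatingGroup (Fin n) → ℂ) = 0) ∧ IsMulCommutative D := by
  haveI : Subsingleton (Fin n) := Fin.subsingleton_iff_le_one.2 (by omega)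
  refine ⟨fun χ _ => ?_, ⟨⟨fun a b => Subsingleton.elim _ _⟩⟩⟩
  have h : charDegree (χ : alternatingGroup (Fin n) → ℂ) = 1 := Nat.dvd_one.1 (by
    have := charDegree_dvd_card χ
    rwa [Nat.card_unique] at this)
  rw [blockHeight, h]
  simp

set_option maxHeartbeats 1000000 in
/-- **Heights in blocks of alternating groups.** -/
theorem alt_heights [Fact p.Prime] {M : Ideal AlgInt} (hM : IsPModular p M)
    {b : Set (IrrCharacter (alternatingGroup (Fin n)))} (hb : IsPBlock M b)
    {D : Subgroup (alternatingGroup (Fin n))} (hD : IsDefectGroup p M b D) :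
    ((∃ χ : IrrCharacter (alternatingGroup (Fin n)), χ ∈ b ∧
        blockHeight p b (χ : alternatingGroup (Fin n) → ℂ) = 1) ∧
      (∃ φ : IrrCharacter D, charDegree (φ : D → ℂ) = p)) ∨
    ((∀ χ : IrrCharacter (alternatingGroup (Fin n)), χ ∈ b →
        blockHeight p b (χ : alternatingGroup (Fin n) → ℂ) = 0) ∧ IsMulCommutative D) := by
  have hp : p.Prime := Fact.out
  by_cases hn : n < 2
  · exact Or.inr (alt_heights_small hn b D)
  haveI : Nontrivial (Fin n) := Fin.nontrivial_iff_two_le.2 (by omega)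
  haveI := isMaximal_of_isPModular hM
  have hidx : (alternatingGroup (Fin n)).index = 2 := alternatingGroup.index_eq_two
  -- the covering block
  obtain ⟨θ₀, hθ₀, hθ₀0⟩ := exists_height_zero (p := p) hb
  obtain ⟨χ₀, hχ₀⟩ := BlocksCover.exists_irr_over (alternatingGroup (Fin n)) θ₀
  set B := blockOf M (χ₀ : Equiv.Perm (Fin n) → ℂ) with hBdef
  have hB : IsPBlock M B := ⟨χ₀, rfl⟩
  have hcov : ∀ θ ∈ b, ∃ χ ∈ B, classInner (fun g : (alternatingGroup (Fin n)) => (χ : Equiv.Perm (Fin n) → ℂ) g)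
      (θ : (alternatingGroup (Fin n)) → ℂ) ≠ 0 := by
    intro θ hθ
    rw [eq_blockOf_of_mem hb hθ₀] at hθ
    exact exists_over_mem_block hidx hχ₀ hθ
  have hrev : ∀ χ ∈ B, ∃ θ ∈ b, classInner (fun g : (alternatingGroup (Fin n)) => (χ : Equiv.Perm (Fin n) → ℂ) g)
      (θ : (alternatingGroup (Fin n)) → ℂ) ≠ 0 := by
    intro χ hχ
    obtain ⟨θ', hθ'⟩ := BlocksCover.exists_constituent χ (alternatingGroup (Fin n))
    obtain ⟨x, hx⟩ := BlocksCover.exists_sameBlock_conj (θ := θ₀) (ψ := θ') fun k => by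
      rw [← (BlocksCover.constituent_iff_centralChar χ₀ θ₀).1 hχ₀ k,
        ← (BlocksCover.constituent_iff_centralChar χ θ').1 hθ' k]
      exact hχ _
    refine ⟨conjIrr x θ', ?_, (BlocksCover.mult_ne_zero_iff χ _).2 ?_⟩
    · rw [eq_blockOf_of_mem hb hθ₀]
      exact hx
    · rw [mult_restrict_conjIrr (isClassFunction_coe χ)]
      exact (BlocksCover.mult_ne_zero_iff χ θ').1 hθ'
  -- beta numbers and the key
  obtain ⟨N, hNdef⟩ : ∃ N, N = p * (n + 3) := ⟨_, rfl⟩
  have hN : Fintype.card (Fin n) ≤ N := by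
    rw [Fintype.card_fin, hNdef]
    exact (Nat.le_add_right n 3).trans (Nat.le_mul_of_pos_left _ hp.pos)
  obtain ⟨K, w, hK, hwsum, χ₁, hχ₁, g₁, -, hg₁c, -⟩ := exists_weight_data hN hM hB
  set Kn : ℕ → ℕ := fun r : ℕ => K (r : ℤ) with hKn
  have hmem := mem_of_keyOf hN hM hB hK
  obtain ⟨β₀, hkβ₀, -⟩ := hK χ₁ hχ₁
  have hK2 : ∀ r < p, 2 ≤ Kn r := fun r hr => by
    have := two_le_key (X := Fin n) hp.pos (Fintype.card_fin n) hNdef β₀.2 r hr
    rw [natKey, hkβ₀] at this
    exact this
  -- exponents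
  set e := (2 : ℕ).factorization p with he
  set νn := (Nat.factorial n).factorization p with hνn
  set d := blockDefect p b with hd
  set mn := minExp p b with hmn
  have hcardA : (Nat.card (alternatingGroup (Fin n))).factorization p + e = νn := by
    have hperm : Nat.card (Equiv.Perm (Fin n)) = Nat.factorial n := by
      rw [Nat.card_perm, Nat.card_fin]
    rw [hνn, ← hperm, ← (alternatingGroup (Fin n)).card_mul_index, hidx, Nat.factorization_mul Nat.card_pos.ne' two_ne_zero,
      Finsupp.add_apply]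
  have hdef : d = (Nat.card (alternatingGroup (Fin n))).factorization p - mn := rfl
  have hmnle : mn ≤ (Nat.card (alternatingGroup (Fin n))).factorization p := minExp_le_card hθ₀
  have hheight : ∀ θ : IrrCharacter (alternatingGroup (Fin n)), θ ∈ b → blockHeight p b (θ : (alternatingGroup (Fin n)) → ℂ) =
      (charDegree (θ : (alternatingGroup (Fin n)) → ℂ)).factorization p - mn := fun θ _ => rfl
  have hdeg : ∀ θ : IrrCharacter (alternatingGroup (Fin n)), θ ∈ b →
      mn ≤ (charDegree (θ : (alternatingGroup (Fin n)) → ℂ)).factorization p ∧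
      (charDegree (θ : (alternatingGroup (Fin n)) → ℂ)).factorization p ≤ (Nat.card (alternatingGroup (Fin n))).factorization p := fun θ hθ =>
    ⟨minExp_le hθ, (Nat.factorization_le_iff_dvd (charDegree_pos θ).ne' Nat.card_pos.ne').2
      (charDegree_dvd_card θ) p⟩
  have hrel : ∀ θ ∈ b, ∀ β : {β : Fin N → ℤ // IsBeta (Fin n) β},
      classInner (fun g : (alternatingGroup (Fin n)) => (irrOf β : Equiv.Perm (Fin n) → ℂ) g) (θ : (alternatingGroup (Fin n)) → ℂ) ≠ 0 →
      (((∀ g, g ∉ (alternatingGroup (Fin n)) → (irrOf β : Equiv.Perm (Fin n) → ℂ) g = 0) →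
        (charDegree (θ : (alternatingGroup (Fin n)) → ℂ)).factorization p + e + Abacus.hookVal p (toSet β.1) = νn) ∧
      ((¬ ∀ g, g ∉ (alternatingGroup (Fin n)) → (irrOf β : Equiv.Perm (Fin n) → ℂ) g = 0) →
        (charDegree (θ : (alternatingGroup (Fin n)) → ℂ)).factorization p + Abacus.hookVal p (toSet β.1) = νn)) := by
    intro θ _ β hcon
    have hh := factorization_chiB_one (p := p) β.2
    rw [← charDegree_irrOf, Fintype.card_fin] at hh
    rcases restrict_index_two hidx (irrOf β) θ hcon with ⟨hnv, hres⟩ | ⟨hv, hd2, -⟩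
    · refine ⟨fun h => absurd h hnv, fun _ => ?_⟩
      have : charDegree (irrOf β : Equiv.Perm (Fin n) → ℂ) = charDegree (θ : (alternatingGroup (Fin n)) → ℂ) := by
        refine charDegree_eq_of_map_one ?_
        rw [coe_charDegree, ← congrFun hres 1]
        rfl
      rwa [← this]
    · refine ⟨fun _ => ?_, fun h => absurd hv h⟩
      rw [hd2, Nat.factorization_mul two_ne_zero (charDegree_pos θ).ne', Finsupp.add_apply] at hh
      rw [hνn, ← hh, he, add_comm ((2 : ℕ).factorization p)]
  -- the defect group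
  obtain ⟨x, hxcl, P, hDP⟩ := id hD
  have hpD : IsPGroup p D := by rw [hDP]; exact P.isPGroup'.map _
  have hcardD : Nat.card D = p ^ d := Contrib.natCard_defectGroup hM hb hD
  -- weight zero
  rcases Nat.eq_zero_or_pos w with hw0 | hw0
  · subst hw0
    obtain ⟨χ, hχ, hcon⟩ := hcov θ₀ hθ₀
    obtain ⟨β, hkβ, rfl⟩ := hK χ hχ
    have hbot : D = ⊥ := defectGroup_eq_bot hidx hM hb hD hθ₀ hcon fun y hy => by
      rw [irrOf_eq_chiB, chiB_eq_zero_of_weight_zero β.2 ?_ hy, Int.cast_zero]
      rw [hwsum β.1 β.2 hkβ, mul_zero, add_zero]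
      subst hkβ
      rfl
    subst hbot
    refine Or.inr ⟨fun θ hθ => ?_, ⟨⟨fun a c => Subsingleton.elim _ _⟩⟩⟩
    rw [Subgroup.card_bot] at hcardD
    have hd0 : d = 0 := by
      by_contra hd0
      exact absurd hcardD.symm (Nat.one_lt_pow hd0 hp.one_lt).ne'
    have := hdeg θ hθ
    rw [hheight θ hθ]
    omega
  -- the fixed points of the defect class
  have hcore := Cfsg.Agent.S0955.result p M hM b hb D hD
  have hxr : ¬ p ∣ orderOf x := not_dvd_orderOf_of_isDefectClass hM hb hxcl
  have hxc : ∀ d ∈ D, d * x = x * d := fun d hd => by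
    rw [hDP] at hd
    obtain ⟨c, -, rfl⟩ := hd
    exact Subgroup.mem_centralizer_singleton_iff.1 c.2
  obtain ⟨F, hF⟩ : ∃ F : Finset (Fin n),
      F = univ.filter fun a => (x : Equiv.Perm (Fin n)) a = a := ⟨_, rfl⟩
  have hxF : ∀ a ∈ F, (x : Equiv.Perm (Fin n)) a = a := fun a ha => by
    rw [hF] at ha; exact (mem_filter.1 ha).2
  have hDF : ∀ d ∈ D, ∀ a, a ∉ F → (d : Equiv.Perm (Fin n)) a = a := fun d hd a ha => by
    by_contra hne
    exact ha (by rw [hF]; exact mem_filter.2 ⟨mem_univ _,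
      fix_of_mem_centralizer_alt hpD hcore hxc hxr ⟨d, hd, hne⟩⟩)
  obtain ⟨Q, ⟨eD⟩⟩ := exists_sylow_fixed x P hDP F hxF hDF
  set m := Fintype.card {a // a ∈ F} with hm
  have hmF : m = F.card := Fintype.card_coe F
  have hmw : m / p ≤ w := by
    by_contra hlt
    push Not at hlt
    have hle : p * (w + 1) ≤ F.card := by
      rw [← hmF]
      exact (Nat.mul_le_mul_left p hlt).trans (Nat.mul_div_le m p)
    obtain ⟨t, c, htc0, hts, hcs, htc, ⟨k, hk⟩, hsupp⟩ := exists_test_perm (p := p) hw0 hle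
    have htA : t ∈ (alternatingGroup (Fin n)) := Equiv.Perm.mem_alternatingGroup.2 hts
    have hcA : c ∉ (alternatingGroup (Fin n)) := fun h => by
      rw [Equiv.Perm.mem_alternatingGroup.1 h] at hcs
      exact absurd hcs (by decide)
    have hdis : ∀ u : Equiv.Perm (Fin n), (∀ a, a ∉ F → u a = a) →
        Commute u (x : Equiv.Perm (Fin n)) := fun u hu =>
      Equiv.Perm.Disjoint.commute fun a => by
        by_cases ha : a ∈ F
        · exact Or.inr (hxF a ha)
        · exact Or.inl (hu a ha)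
    have htx : Commute t (x : Equiv.Perm (Fin n)) := hdis t fun a ha => (htc0 a ha).1
    have hcx : Commute c (x : Equiv.Perm (Fin n)) := hdis c fun a ha => (htc0 a ha).2
    set tA : (alternatingGroup (Fin n)) := ⟨t, htA⟩ with htA'
    have hordt : orderOf tA = p ^ k := by rw [← Subgroup.orderOf_coe, htA', hk]
    have hxr' : ¬ p ∣ orderOf (x : Equiv.Perm (Fin n)) := by rwa [Subgroup.orderOf_coe]
    refine not_memLocalIdeal_apply_of_height_zero hM hb hxcl hθ₀ hθ₀0 ?_
    rw [← (congr_apply_mul hM (isCharacter_coe θ₀) (x := tA) (y := x)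
      (Subtype.ext htx.eq) hordt hxr).mem_iff]
    obtain ⟨χ, hχ, hcon⟩ := hcov θ₀ hθ₀
    obtain ⟨β, hkβ, rfl⟩ := hK χ hχ
    have hzero : (irrOf β : Equiv.Perm (Fin n) → ℂ) ((tA * x : (alternatingGroup (Fin n))) : Equiv.Perm (Fin n)) = 0 := by
      rw [irrOf_eq_chiB, Subgroup.coe_mul,
        chiB_eq_zero_of_support β.2 ?_ htx hk hxr' (by convert hsupp), Int.cast_zero]
      rw [hwsum β.1 β.2 hkβ]
      subst hkβ
      rfl
    rcases restrict_index_two hidx (irrOf β) θ₀ hcon with ⟨-, hres⟩ | ⟨-, -, hsum2⟩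
    · rw [← congrFun hres (tA * x)]
      rw [hzero]
      exact memLocalIdeal_zero
    · have h2 := hsum2 c hcA (tA * x)
      rw [hzero, conjFun_apply] at h2
      have hfix : ∀ h, (⟨c⁻¹ * ((tA * x : (alternatingGroup (Fin n))) : Equiv.Perm (Fin n)) * c, h⟩ : (alternatingGroup (Fin n))) = tA * x :=
        fun h => Subtype.ext (by
          show c⁻¹ * (t * (x : Equiv.Perm (Fin n))) * c = t * x
          rw [mul_assoc, ← (htc.symm.mul_right hcx).eq, ← mul_assoc, inv_mul_cancel, one_mul])
      rw [hfix, ← two_mul, eq_comm, mul_eq_zero] at h2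
      rw [h2.resolve_left two_ne_zero]
      exact memLocalIdeal_zero
  -- the order of the defect group
  have hcardQ : Nat.card (Q : Subgroup (alternatingGroup {a // a ∈ F})) = p ^ d := by
    rw [← hcardD]
    exact (Nat.card_congr eD.toEquiv).symm
  have hdQ : d = (Nat.card (alternatingGroup {a // a ∈ F})).factorization p := by
    have h := Q.card_eq_multiplicity
    rw [hcardQ] at h
    exact Nat.pow_right_injective hp.two_le h
  have hm2 : 2 ≤ m → d + e = m / p + (Nat.factorial (m / p)).factorization p := by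
    intro h2
    haveI : Nontrivial {a // a ∈ F} := Fintype.one_lt_card_iff_nontrivial.1 h2
    rw [hdQ, ← factorization_factorial_div hp, hm, ← Fintype.card_perm, ← Nat.card_eq_fintype_card,
      ← (alternatingGroup {a // a ∈ F}).card_mul_index, alternatingGroup.index_eq_two,
      Nat.factorization_mul Nat.card_pos.ne' two_ne_zero, Finsupp.add_apply]
  have hm1 : ¬ 2 ≤ m → d = 0 := fun h => by
    haveI : Subsingleton {a // a ∈ F} :=
      Fintype.card_le_one_iff_subsingleton.1 (by omega)
    rw [hdQ, Nat.card_unique]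
    simp
  set Hm := w + (Nat.factorial w).factorization p with hHm
  have he1 : e ≤ 1 := by
    rw [he]
    by_cases h : p = 2
    · rw [h, Nat.prime_two.factorization_self]
    · rw [Nat.factorization_eq_zero_of_not_dvd fun hd => h ?_]
      · omega
      · exact (Nat.prime_dvd_prime_iff_eq hp Nat.prime_two).1 hd
  have he2 : p ≠ 2 → e = 0 := fun h => by
    rw [he]
    exact Nat.factorization_eq_zero_of_not_dvd fun hd =>
      h ((Nat.prime_dvd_prime_iff_eq hp Nat.prime_two).1 hd)
  have hup : d + e ≤ Hm := by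
    by_cases h2 : 2 ≤ m
    · rw [hm2 h2, hHm]
      refine Nat.add_le_add hmw ?_
      exact (Nat.factorization_le_iff_dvd (Nat.factorial_ne_zero _) (Nat.factorial_ne_zero _)).2
        (Nat.factorial_dvd_factorial hmw) p
    · rw [hm1 h2]
      omega
  have hwsum' : ∑ y ∈ toSet β₀.1, y = Abacus.coreSum p Kn + p * w := hwsum β₀.1 β₀.2 hkβ₀
  -- a member of least exponent
  obtain ⟨s₀, hs₀K, hs₀sum, hs₀h, hs₀m⟩ := Abacus.exists_hookVal_max hK2 hw0
  obtain ⟨γ₀, hγ₀K, hγ₀s⟩ := exists_beta_of_conf hN hkβ₀ hwsum' hs₀K hs₀sum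
  have hnonSA : ∀ γ : {β : Fin N → ℤ // IsBeta (Fin n) β},
      (p = 2 → ∀ M', Abacus.mirror M' (toSet γ.1) ≠ toSet γ.1) → ∀ θ ∈ b,
      classInner (fun g : (alternatingGroup (Fin n)) => (irrOf γ : Equiv.Perm (Fin n) → ℂ) g) (θ : (alternatingGroup (Fin n)) → ℂ) ≠ 0 →
      (charDegree (θ : (alternatingGroup (Fin n)) → ℂ)).factorization p + Abacus.hookVal p (toSet γ.1) = νn := by
    intro γ hγm θ hθ hcon
    by_cases hv : ∀ g, g ∉ (alternatingGroup (Fin n)) → (irrOf γ : Equiv.Perm (Fin n) → ℂ) g = 0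
    · have h := (hrel θ hθ γ hcon).1 hv
      by_cases hp2 : p = 2
      · exact absurd (mirror_eq_of_vanish hN γ hv) (hγm hp2 N)
      · rw [he2 hp2, add_zero] at h
        exact h
    · exact (hrel θ hθ γ hcon).2 hv
  obtain ⟨θ₁, hθ₁, hcon₁⟩ := hrev _ (hmem γ₀ hγ₀K)
  have h1 := hnonSA γ₀ (hγ₀s.symm ▸ hs₀m) θ₁ hθ₁ hcon₁
  rw [hγ₀s, hs₀h, ← hHm] at h1
  have hmin : mn + Hm = νn ∧ d + e = Hm := by
    have := (hdeg θ₁ hθ₁).1
    omega
  by_cases hcase : (p ≠ 2 ∧ w < p) ∨ (p = 2 ∧ w ≤ 2)
  · -- all heights are zero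
    refine Or.inr ⟨fun θ hθ => ?_, ?_⟩
    · rw [hheight θ hθ, Nat.sub_eq_zero_iff_le]
      obtain ⟨χ, hχ, hcon⟩ := hcov θ hθ
      obtain ⟨β, hkβ, rfl⟩ := hK χ hχ
      have hsumβ := hwsum β.1 β.2 hkβ
      have hkeyβ := hasKey_of_keyOf β.2 hkβ
      have hge := Abacus.le_hookVal hkeyβ hsumβ
      rcases hcase with ⟨hp2, hwp⟩ | ⟨hp2, hw2⟩
      · have hh := Abacus.hookVal_eq_weight hkeyβ hsumβ hwp
        have hfac : (Nat.factorial w).factorization p = 0 :=
          Nat.factorization_factorial_eq_zero_of_lt hwp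
        have := he2 hp2
        by_cases hv : ∀ g, g ∉ (alternatingGroup (Fin n)) → (irrOf β : Equiv.Perm (Fin n) → ℂ) g = 0
        · have := (hrel θ hθ β hcon).1 hv
          omega
        · have := (hrel θ hθ β hcon).2 hv
          omega
      · subst hp2
        have he2' : e = 1 := by rw [he, Nat.prime_two.factorization_self]
        have hH : Hm = if w = 1 then 1 else 3 := by
          rw [hHm]
          obtain rfl | rfl : w = 1 ∨ w = 2 := by omega
          · simp
          · simp [Nat.factorial, Nat.prime_two.factorization_self]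
        by_cases hv : ∀ g, g ∉ (alternatingGroup (Fin n)) → (irrOf β : Equiv.Perm (Fin n) → ℂ) g = 0
        · have := (hrel θ hθ β hcon).1 hv
          split_ifs at hH <;> omega
        · have hθe := (hrel θ hθ β hcon).2 hv
          obtain rfl | rfl : w = 1 ∨ w = 2 := by omega
          · rw [if_pos rfl] at hH
            omega
          · rw [if_neg (by omega)] at hH
            by_contra hlt
            have hh : Abacus.hookVal 2 (toSet β.1) = 2 := by omega
            refine hv (vanish_of_conjBeta hN β ?_)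
            have hcB := conjBeta_mem_block hN hM rfl hB (hmem β hkβ)
            obtain ⟨β', hkβ', hββ'⟩ := hK _ hcB
            have hβ' : β'.1 = conjBeta β.1 :=
              congrArg Subtype.val ((irrOf_bijective hN).1 hββ')
            have hkc : keyOf 2 (conjBeta β.1) = K := hβ' ▸ hkβ'
            have hbc := isBeta_conjBeta hN β.2
            have hhc : Abacus.hookVal 2 (toSet (conjBeta β.1)) = 2 := by
              have f1 := factorization_chiB_one (p := 2) hbc
              have f2 := factorization_chiB_one (p := 2) β.2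
              rw [← sign_mul_chiB hN β.2 1, map_one, Units.val_one, one_mul] at f1
              omega
            exact (toSet_injective β.2 hbc (Abacus.eq_of_hookVal_two hkeyβ
              (hasKey_of_keyOf hbc hkc) hsumβ (hwsum _ hbc hkc) hh hhc)).symm
    · haveI := isMulCommutative_sylow_alt (X := {a // a ∈ F}) (p := p) (by
        rw [← hm]
        rcases hcase with ⟨h2, h⟩ | ⟨h2, h⟩
        · exact Or.inl ⟨h2, by omega⟩
        · subst h2; exact Or.inr ⟨rfl, by omega⟩) Q
      exact ⟨⟨fun a c => eD.injective (by rw [map_mul, map_mul]; exact mul_comm' _ _)⟩⟩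
  · -- a character of height one
    have hwp : p ≤ w := by
      have := hp.two_le
      by_contra h
      by_cases h2 : p = 2
      · exact hcase (Or.inr ⟨h2, by omega⟩)
      · exact hcase (Or.inl ⟨h2, by omega⟩)
    have hw3 : p = 2 → 3 ≤ w := fun h2 => by
      by_contra h
      exact hcase (Or.inr ⟨h2, by omega⟩)
    obtain ⟨s₁, hs₁K, hs₁sum, hs₁h, hs₁m⟩ := Abacus.exists_hookVal_max_sub_one hK2 hwp hw3
    obtain ⟨γ₁, hγ₁K, hγ₁s⟩ := exists_beta_of_conf hN hkβ₀ hwsum' hs₁K hs₁sum
    obtain ⟨θ₂, hθ₂, hcon₂⟩ := hrev _ (hmem γ₁ hγ₁K)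
    have h2 := hnonSA γ₁ (hγ₁s.symm ▸ hs₁m) θ₂ hθ₂ hcon₂
    rw [hγ₁s] at h2
    refine Or.inl ⟨⟨θ₂, hθ₂, ?_⟩, ?_⟩
    · rw [hheight θ₂ hθ₂]
      omega
    have hm2' : 2 ≤ m := by
      by_contra h
      have := hm1 h
      have := hp.two_le
      omega
    have hwm : w ≤ m / p := by
      refine div_le_of_factorization_le (p := p) ?_
      rw [← hHm, ← hm2 hm2', hmin.2]
    obtain ⟨φ, hφ⟩ := exists_charDegree_prime_sylow_alt (X := {a // a ∈ F}) (p := p) (by
      rw [← hm]
      by_cases h2' : p = 2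
      · have := hw3 h2'
        subst h2'
        exact Or.inr ⟨rfl, by omega⟩
      · exact Or.inl ⟨h2', by omega⟩) Q
    exact ⟨irrEquiv eD.symm φ, by rw [charDegree_irrEquiv, hφ]⟩

end CfsgLib.SymBlocks
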