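import Cfsg.Agent.SymBlocks.Conj
import Cfsg.Agent.Blocks.HeightZero.InducedDefect

/-!
# Characters of weight `w` vanish when the `p`-part moves more than `p w` points
-/

set_option autoImplicit false
set_option linter.style.haveILetI false
set_option linter.unusedSectionVars false

open scoped Classical

namespace CfsgLib.SymBlocks

open Finset Cfsg

universe u

variable {N p : ℕ}

/-- A character of weight `w` vanishes at an element with more than `p * w` points on which all
orbit lengths are divisible by `p`. -/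
theorem chiB_eq_zero_of_periodic [Fact p.Prime] {X : Type u} [Fintype X] {β : Fin N → ℤ}
    (hβ : IsBeta X β) {w : ℕ}
    (hw : ∑ x ∈ toSet β, x = Abacus.coreSum p (natKey p β) + p * w) {y : Equiv.Perm X}
    {P : Finset X} (hyP : ∀ a, a ∈ P ↔ y a ∈ P)
    (hper : ∀ a ∈ P, ∀ k : ℕ, (y ^ k) a = a → p ∣ k) (hP : p * w < P.card) : chiB y β = 0 := by
  suffices H : ∀ (n : ℕ) (X : Type u) [Fintype X], Fintype.card X = n → ∀ (β : Fin N → ℤ),
      IsBeta X β → ∀ (w : ℕ), (∑ x ∈ toSet β, x = Abacus.coreSum p (natKey p β) + p * w) →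
      ∀ (y : Equiv.Perm X) (P : Finset X), (∀ a, a ∈ P ↔ y a ∈ P) →
      (∀ a ∈ P, ∀ k : ℕ, (y ^ k) a = a → p ∣ k) → p * w < P.card → chiB y β = 0 from
    H _ X rfl β hβ w hw y P hyP hper hP
  clear hβ hw hyP hper hP P y w β
  intro n
  induction n using Nat.strong_induction_on with
  | _ n ih => ?_
  intro X _ hn β hβ w hw y P hyP hper hP
  obtain ⟨a, ha⟩ : P.Nonempty := card_pos.1 (by omega)
  have hmoved : ∀ b ∈ P, y b ≠ b := fun b hb e => by
    have := hper b hb 1 (by simpa using e)
    exact (Fact.out : p.Prime).not_dvd_one this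
  obtain ⟨T, hT⟩ : ∃ T : Finset X, T = (y.cycleOf a).support := ⟨_, rfl⟩
  have haS : a ∈ y.support := Equiv.Perm.mem_support.2 (hmoved a ha)
  have hmemT : ∀ b, b ∈ T ↔ y.SameCycle a b := fun b => by
    rw [hT, Equiv.Perm.mem_support_cycleOf_iff, and_iff_left haS]
  have hy' : ∀ b, b ∉ T ↔ y b ∉ T := fun b => by
    rw [hmemT, hmemT, Equiv.Perm.sameCycle_apply_right]
  have horb : ∀ b ∈ T, ∀ c ∈ T, y.SameCycle b c := fun b hb c hc =>
    ((hmemT b).1 hb).symm.trans ((hmemT c).1 hc)
  have hTP : T ⊆ P := by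
    intro b hb
    obtain ⟨k, rfl⟩ := ((hmemT b).1 hb).exists_nat_pow_eq
    clear hb
    induction k with
    | zero => simpa using ha
    | succ k ihk => rw [pow_succ', Equiv.Perm.mul_apply]; exact (hyP _).1 ihk
  have hne : T.Nonempty := ⟨a, (hmemT a).2 (Equiv.Perm.SameCycle.refl _ _)⟩
  have hpm : p ∣ T.card := by
    refine hper a ha _ ?_
    rw [← Equiv.Perm.cycleOf_pow_apply_self, hT,
      ← (Equiv.Perm.isCycle_cycleOf y (hmoved a ha)).orderOf, pow_orderOf_eq_one]
    rfl
  suffices h : (chiB y β : ℂ) = 0 by exact_mod_cast h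
  rw [chiB_orbit_expand hne hy' horb β]
  refine sum_eq_zero fun γ hγ => ?_
  by_cases hc : shiftCoeff T.card γ β = 0
  · rw [hc, zero_mul]
  have hk := keyOf_eq_of_shiftCoeff hpm hc
  have hγ' := mem_betaSet.1 hγ
  obtain ⟨v, hv⟩ := Abacus.exists_weight (Fact.out : p.Prime).pos
    (hasKey_toSet (p := p) hγ'.nonneg hγ'.mono.injective)
  have hnk : natKey p γ = natKey p β := funext fun r => congrFun hk _
  have h1 := sum_toSet hγ'.nonneg hγ'.mono.injective
  have h2 := sum_toSet hβ.nonneg hβ.mono.injective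
  have hcard : Fintype.card {b // b ∉ T} = n - T.card := by
    rw [Fintype.card_subtype_compl, Fintype.card_coe, hn]
  have hTn : T.card ≤ n := hn ▸ card_le_univ T
  rw [hγ'.sum_eq, hcard, hv, hnk] at h1
  rw [hβ.sum_eq, hn, hw] at h2
  push_cast [Nat.cast_sub hTn] at h1 h2
  have hTpos := card_pos.2 hne
  have hle : T.card ≤ P.card := card_le_card hTP
  have hrel : (p * v : ℕ) + T.card = p * w := by
    have : ((p * v : ℕ) : ℤ) + (T.card : ℤ) = ((p * w : ℕ) : ℤ) := by push_cast; linarith
    exact_mod_cast this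
  rw [ih (Fintype.card {b // b ∉ T}) (by omega) {b // b ∉ T} rfl γ hγ' v hv _
    (P.subtype fun b => b ∉ T) ?_ ?_ ?_]
  · simp
  · intro b
    simp only [Finset.mem_subtype]
    exact hyP b.1
  · intro b hb k hk'
    refine hper b.1 (Finset.mem_subtype.1 hb) k ?_
    have hcoe : ∀ k : ℕ,
        (((y.subtypePerm (p := fun c => c ∉ T) (fun c => (hy' c).symm)) ^ k) b : X) = (y ^ k) b := by
      intro k
      induction k with
      | zero => simp
      | succ k ihk =>
        rw [pow_succ', pow_succ', Equiv.Perm.mul_apply, Equiv.Perm.mul_apply, ← ihk]; rfl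
    rw [← hcoe, hk']
  · have e : (P.subtype fun b => b ∉ T).card = P.card - T.card := by
      rw [Finset.card_subtype, Finset.filter_notMem_eq_sdiff, card_sdiff_of_subset hTP]
    omega

variable {X : Type u} [Fintype X]

/-- A character of weight `w` vanishes at `t * r` for a `p`-element `t` moving more than `p * w`
points and a commuting `p`-regular `r`. -/
theorem chiB_eq_zero_of_support [Fact p.Prime] {β : Fin N → ℤ} (hβ : IsBeta X β) {w : ℕ}
    (hw : ∑ x ∈ toSet β, x = Abacus.coreSum p (natKey p β) + p * w) {t r : Equiv.Perm X}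
    (hc : Commute t r) {k : ℕ} (ht : orderOf t = p ^ k) (hr : ¬ p ∣ orderOf r)
    (hP : p * w < t.support.card) : chiB (t * r) β = 0 := by
  have hp : p.Prime := Fact.out
  have hrinv : ∀ a, t (r a) = r (t a) := fun a => Equiv.congr_fun hc.eq a
  refine chiB_eq_zero_of_periodic (P := t.support) hβ hw (fun a => ?_) (fun a ha j hj => ?_) hP
  · simp only [Equiv.Perm.mem_support, Equiv.Perm.mul_apply, ne_eq]
    refine not_congr ⟨fun h => ?_, fun h => ?_⟩
    · rw [hrinv a, h, hrinv a, h]
    · exact r.injective (by rw [← hrinv a]; exact t.injective h)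
  · by_contra hpj
    -- `t` raised to a multiple of `j` prime to `p` fixes `a`
    have hfix : Function.IsFixedPt (t ^ (j * orderOf r) : Equiv.Perm X) a := by
      have h1 : Function.IsFixedPt ((t * r) ^ j : Equiv.Perm X) a := hj
      have h2 := h1.perm_pow (orderOf r)
      rwa [← pow_mul, hc.mul_pow, mul_comm j (orderOf r), pow_mul r, pow_orderOf_eq_one, one_pow,
        mul_one, mul_comm (orderOf r) j] at h2
    have hco : Nat.Coprime (j * orderOf r) (orderOf t) := by
      rw [ht]
      refine Nat.Coprime.pow_right k ?_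
      exact ((hp.coprime_iff_not_dvd.2 hpj).mul_right (hp.coprime_iff_not_dvd.2 hr)).symm
    obtain ⟨e, he⟩ := exists_pow_eq_self_of_coprime hco
    have h3 := hfix.perm_pow e
    rw [he] at h3
    exact Equiv.Perm.mem_support.1 ha h3

open CfsgLib.Blocks CfsgLib.Blocks.HeightZero in
/-- The elements of a defect group of a block of weight `w` move at most `p * w` points. -/
theorem card_support_le_of_mem_defectGroup [Fact p.Prime] {M : Ideal AlgInt} (hM : IsPModular p M)
    {B : Set (IrrCharacter (Equiv.Perm X))} (hB : IsPBlock M B) {w : ℕ}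
    (hw : ∀ χ ∈ B, ∃ β : {β : Fin N → ℤ // IsBeta X β}, irrOf β = χ ∧
      ∑ x ∈ toSet β.1, x = Abacus.coreSum p (natKey p β.1) + p * w)
    {D : Subgroup (Equiv.Perm X)} (hD : IsDefectGroup p M B D) {t : Equiv.Perm X} (ht : t ∈ D) :
    t.support.card ≤ p * w := by
  haveI := isMaximal_of_isPModular hM
  by_contra hlt
  push Not at hlt
  obtain ⟨χ, hχ, h0⟩ := exists_height_zero (p := p) hB
  obtain ⟨r, hr, S, rfl⟩ := hD
  obtain ⟨d, hdS, rfl⟩ := ht
  have hc : Commute ((Subgroup.centralizer ({r} : Set (Equiv.Perm X))).subtype d) r :=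
    Subgroup.mem_centralizer_singleton_iff.1 d.2
  obtain ⟨k, hk⟩ := IsPGroup.iff_orderOf.1 S.isPGroup' ⟨d, hdS⟩
  rw [Subgroup.orderOf_mk] at hk
  have hk' : orderOf ((Subgroup.centralizer ({r} : Set (Equiv.Perm X))).subtype d) = p ^ k := by
    rw [Subgroup.coe_subtype, Subgroup.orderOf_coe, hk]
  have hreg := not_dvd_orderOf_of_isDefectClass hM hB hr
  obtain ⟨β, rfl, hwβ⟩ := hw χ hχ
  refine not_memLocalIdeal_apply_of_height_zero hM hB hr hχ h0 ?_
  rw [← (congr_apply_mul hM (Chars.isCharacter_coe (irrOf β)) hc hk' hreg).mem_iff,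
    irrOf_eq_chiB, chiB_eq_zero_of_support β.2 hwβ hc hk' hreg hlt, Int.cast_zero]
  exact memLocalIdeal_zero

end CfsgLib.SymBlocks
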