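import Cfsg.Agent.SymBlocks.AltMain
import Cfsg.Agent.SymBlocks.Vanish

/-!
# Restriction to a subgroup of index two, test permutations, Sylow groups of fixed point sets
-/

set_option autoImplicit false
set_option linter.style.haveILetI false
set_option linter.unusedSectionVars false

open scoped Classical ComplexConjugate

namespace CfsgLib.SymBlocks

open Cfsg CfsgLib.Chars CfsgLib.Chars.Induced Finset

universe u

section IndexTwo

variable {G : Type u} [Group G] [Fintype G] {N : Subgroup G} [N.Normal] [Fintype N]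

/-- The restriction to a subgroup of index two is irreducible, or the character vanishes outside
and the restriction is the sum of two conjugates. -/
theorem restrict_index_two (hN : N.index = 2) (χ : IrrCharacter G) (θ : IrrCharacter N)
    (hcon : classInner (fun n : N => (χ : G → ℂ) n) (θ : N → ℂ) ≠ 0) :
    (¬ (∀ g, g ∉ N → (χ : G → ℂ) g = 0) ∧ (fun n : N => (χ : G → ℂ) n) = (θ : N → ℂ)) ∨
    ((∀ g, g ∉ N → (χ : G → ℂ) g = 0) ∧
      charDegree (χ : G → ℂ) = 2 * charDegree (θ : N → ℂ) ∧
      ∀ g, g ∉ N → ∀ n : N, (χ : G → ℂ) n = (θ : N → ℂ) n + conjFun N g (θ : N → ℂ) n) := by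
  have hm := (BlocksCover.mult_ne_zero_iff χ θ).1 hcon
  set r : N → ℂ := fun n => (χ : G → ℂ) n with hr
  have hrchar : IsCharacter N r := isCharacter_restrict (isCharacter_coe χ) N
  set e := mult r θ with he
  set S := (Set.finite_range fun x : G => conjIrr x θ).toFinset with hS
  have hcl : r = (e : ℂ) • ∑ η ∈ S, (η : N → ℂ) := clifford χ θ hm
  have hmult : ∀ η ∈ S, classInner r (η : N → ℂ) = (e : ℂ) := by
    intro η hη
    rw [hcl, Induced.classInner_smul_left, classInner_finset_irr, if_pos hη, mul_one]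
  have hself : classInner r r = ((e * e * S.card : ℕ) : ℂ) := by
    conv_lhs => enter [2]; rw [hcl]
    rw [CfsgLib.Chars.Exceptional.inner_smul_right, CfsgLib.Chars.Exceptional.inner_sum_right, Finset.sum_congr rfl hmult]
    simp [mul_assoc, mul_comm]
  -- the squares inside and outside
  have hGN : (Nat.card G : ℂ) = 2 * (Nat.card N : ℂ) := by
    rw [← N.card_mul_index, hN]; push_cast; ring
  have hone := classInner_self χ
  set sq : G → ℝ := fun g => Complex.normSq ((χ : G → ℂ) g) with hsq
  have hsqc : ∀ g, (χ : G → ℂ) g * conj ((χ : G → ℂ) g) = (sq g : ℂ) := fun g => by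
    rw [hsq, Complex.mul_conj]
  have hin : ((∑ n : N, sq n : ℝ) : ℂ) = (Nat.card N : ℂ) * ((e * e * S.card : ℕ) : ℂ) := by
    rw [← hself, classInner, ← mul_assoc, mul_inv_cancel₀ (Nat.cast_ne_zero.2 Nat.card_pos.ne'),
      one_mul, Complex.ofReal_sum]
    exact Finset.sum_congr rfl fun n _ => (hsqc n).symm
  have htot : ((∑ g : G, sq g : ℝ) : ℂ) = (Nat.card G : ℂ) := by
    rw [classInner, inv_mul_eq_iff_eq_mul₀ (Nat.cast_ne_zero.2 Nat.card_pos.ne'), mul_one] at hone
    rw [Complex.ofReal_sum, ← hone]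
    exact Finset.sum_congr rfl fun n _ => (hsqc n).symm
  set c := e * e * S.card with hc
  set off : ℝ := ∑ g ∈ univ.filter (fun g : G => g ∉ N), sq g with hoff
  have hsplit : ∑ g : G, sq g = ∑ n : N, sq n + off := by
    rw [hoff, ← Finset.sum_subtype (univ.filter fun g : G => g ∈ N) (fun g => by simp) sq,
      Finset.sum_filter_add_sum_filter_not]
  have hreal : (Nat.card N : ℝ) * (c : ℝ) + off = 2 * (Nat.card N : ℝ) := by
    have h1 : ((∑ g : G, sq g : ℝ) : ℂ) = (((2 : ℝ) * (Nat.card N : ℝ) : ℝ) : ℂ) := by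
      rw [htot, hGN]; push_cast; ring
    have h2 : ((∑ n : N, sq n : ℝ) : ℂ) = ((((Nat.card N : ℝ) * (c : ℝ)) : ℝ) : ℂ) := by
      rw [hin]; push_cast; ring
    rw [← Complex.ofReal_inj.1 h2, ← hsplit, Complex.ofReal_inj.1 h1]
  have hoff0 : 0 ≤ off := Finset.sum_nonneg fun g _ => Complex.normSq_nonneg _
  have hvan : (∀ g, g ∉ N → (χ : G → ℂ) g = 0) ↔ off = 0 := by
    rw [hoff, Finset.sum_eq_zero_iff_of_nonneg fun g _ => Complex.normSq_nonneg _]
    simp [hsq, Complex.normSq_eq_zero]
  have hcardN : (0 : ℝ) < (Nat.card N : ℝ) := Nat.cast_pos.2 Nat.card_pos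
  have he0 : 0 < e := Nat.pos_of_ne_zero hm
  have hθS : θ ∈ S := (Set.finite_range _).mem_toFinset.2 ⟨1, conjIrr_one θ⟩
  have hS0 : 0 < S.card := card_pos.2 ⟨θ, hθS⟩
  have hc0 : 0 < c := Nat.mul_pos (Nat.mul_pos he0 he0) hS0
  have hc2 : c ≤ 2 := by
    by_contra h
    have h3 : (3 : ℝ) ≤ (c : ℝ) := by exact_mod_cast (show 3 ≤ c by omega)
    nlinarith
  have he1 : e = 1 := by
    by_contra h
    have h4 : 2 * 2 * 1 ≤ c := Nat.mul_le_mul (Nat.mul_le_mul (by omega) (by omega)) hS0
    omega
  have hcS : c = S.card := by rw [hc, he1, one_mul, one_mul]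
  by_cases hv : ∀ g, g ∉ N → (χ : G → ℂ) g = 0
  · right
    have hc' : c = 2 := by
      have h0 := hvan.1 hv
      rw [h0, add_zero] at hreal
      have : (c : ℝ) = 2 := mul_left_cancel₀ hcardN.ne' (by rw [hreal]; ring)
      exact_mod_cast this
    have hS2 : S.card = 2 := hcS ▸ hc'
    have hle : N ≤ inertia N (θ : N → ℂ) :=
      le_inertia (Blocks.isClassFunction_of_isCharacter (isCharacter_coe θ))
    have key : ∀ g, g ∉ N → S = {θ, conjIrr g θ} ∧ θ ≠ conjIrr g θ := by
      intro g hg
      have hsub : S ⊆ {θ, conjIrr g θ} := by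
        intro η hη
        obtain ⟨x, rfl⟩ := (Set.finite_range _).mem_toFinset.1 hη
        simp only [Finset.mem_insert, Finset.mem_singleton]
        by_cases hx : x ∈ N
        · exact Or.inl (Subtype.ext (mem_inertia.1 (hle hx)))
        · right
          have h1 : g⁻¹ * x ∈ N := by
            rw [Subgroup.mul_mem_iff_of_index_two hN]
            exact iff_of_false (fun h => hg (inv_inv g ▸ N.inv_mem h)) hx
          show conjIrr x θ = conjIrr g θ
          rw [show x = g * (g⁻¹ * x) by group, conjIrr_mul]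
          congr 1
          exact Subtype.ext (mem_inertia.1 (hle h1))
      have hne : θ ≠ conjIrr g θ := fun e' => by
        have := card_le_card hsub
        rw [← e', Finset.pair_eq_singleton, Finset.card_singleton] at this
        omega
      exact ⟨eq_of_subset_of_card_le hsub (by rw [hS2, Finset.card_pair hne]), hne⟩
    have hval : ∀ g, g ∉ N → ∀ n : N,
        (χ : G → ℂ) n = (θ : N → ℂ) n + conjFun N g (θ : N → ℂ) n := by
      intro g hg n
      obtain ⟨hS', hne⟩ := key g hg
      have h := congrFun hcl n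
      rw [hS', Finset.sum_pair hne, he1] at h
      rw [show (χ : G → ℂ) n = r n from rfl, h]
      simp [conjIrr_coe]
    refine ⟨hv, ?_, hval⟩
    obtain ⟨g, hg⟩ : ∃ g, g ∉ N := by
      by_contra! h
      rw [(Subgroup.eq_top_iff' N).2 h, Subgroup.index_top] at hN
      omega
    have h1 := hval g hg 1
    rw [conjFun_apply] at h1
    simp only [OneMemClass.coe_one, mul_one, inv_mul_cancel] at h1
    rw [show (⟨1, _⟩ : N) = 1 from rfl] at h1
    refine charDegree_eq_of_map_one ?_
    rw [h1, Nat.cast_mul, Nat.cast_two, coe_charDegree θ]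
    ring
  · left
    refine ⟨hv, ?_⟩
    have hc' : c = 1 := by
      by_contra h
      apply hv
      rw [hvan]
      rw [show c = 2 by omega, Nat.cast_two, mul_comm] at hreal
      linarith
    have hS1 : S = {θ} := (Finset.eq_singleton_iff_unique_mem).2
      ⟨hθS, fun η hη => Finset.card_le_one.1 (by omega) η hη θ hθS⟩
    rw [hcl, hS1, Finset.sum_singleton, he1, Nat.cast_one, one_smul]

end IndexTwo

section Test

variable {p : ℕ} [Fact p.Prime]

theorem prodCongrRight_pow {α β : Type*} (σ : α → Equiv.Perm β) (k : ℕ) :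
    (Equiv.prodCongrRight σ : Equiv.Perm (α × β)) ^ k = Equiv.prodCongrRight fun a => σ a ^ k := by
  induction k with
  | zero => exact Equiv.ext fun x => rfl
  | succ k ih =>
    refine Equiv.ext fun x => ?_
    rw [pow_succ', Equiv.Perm.mul_apply, ih]
    simp only [pow_succ']
    rfl

theorem finRotate_pow_self (k : ℕ) : finRotate (k + 2) ^ (k + 2) = 1 := by
  have h := pow_orderOf_eq_one (finRotate (k + 2))
  rwa [(isCycle_finRotate (n := k)).orderOf, support_finRotate, card_univ, Fintype.card_fin] at h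

/-- A model of the test permutations. -/
theorem exists_test_model {w : ℕ} (hw : 1 ≤ w) :
    ∃ (α : Type) (_ : Fintype α) (_ : DecidableEq α) (t c : Equiv.Perm α),
      Fintype.card α = p * (w + 1) ∧ Equiv.Perm.sign t = 1 ∧ Equiv.Perm.sign c = -1 ∧ Commute t c ∧
      (∃ k, t ^ p ^ k = 1) ∧ ∀ a, t a ≠ a := by
  have hp : p.Prime := Fact.out
  obtain ⟨q, hq⟩ : ∃ q, p = q + 2 := ⟨p - 2, by have := hp.two_le; omega⟩
  have hrot : ∀ i : Fin (q + 2), finRotate (q + 2) i ≠ i := fun i => by
    rw [← Equiv.Perm.mem_support, support_finRotate]; exact mem_univ i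
  by_cases h : p = 2 ∧ Even w
  · obtain ⟨rfl, hev⟩ := h
    obtain ⟨v, hv⟩ : ∃ v, w = v + 2 := ⟨w - 2, by obtain ⟨u, hu⟩ := hev; omega⟩
    have hodd : Odd (v + 1) := by
      obtain ⟨u, hu⟩ := hev
      exact ⟨u - 1, by omega⟩
    refine ⟨Fin 4 ⊕ (Fin (v + 1) × Fin 2), inferInstance, inferInstance,
      Equiv.sumCongr (finRotate 4) (Equiv.prodCongrRight fun _ => finRotate 2),
      Equiv.sumCongr (finRotate 4) (Equiv.refl _), ?_, ?_, ?_, ?_, ⟨2, ?_⟩, ?_⟩
    · simp; omega
    · rw [Equiv.Perm.sign_sumCongr, Equiv.Perm.sign_prodCongrRight, prod_const, card_univ,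
        Fintype.card_fin, sign_finRotate, sign_finRotate,
        show ((-1 : ℤˣ) ^ (4 - 1)) = -1 from rfl, show ((-1 : ℤˣ) ^ (2 - 1)) = -1 from rfl,
        hodd.neg_one_pow]
      rfl
    · rw [Equiv.Perm.sign_sumCongr, Equiv.Perm.sign_refl, sign_finRotate]
      rfl
    · exact Equiv.ext fun x => by rcases x with x | x <;> rfl
    · refine Equiv.ext fun x => ?_
      have h4 := finRotate_pow_self 2
      have h2 := finRotate_pow_self 0
      have hpow : ∀ k, (Equiv.sumCongr (finRotate 4)
          (Equiv.prodCongrRight fun _ : Fin (v + 1) => finRotate 2) :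
            Equiv.Perm (Fin 4 ⊕ (Fin (v + 1) × Fin 2))) ^ k =
          Equiv.sumCongr (finRotate 4 ^ k) (Equiv.prodCongrRight fun _ => finRotate 2 ^ k) := by
        intro k
        induction k with
        | zero => exact Equiv.ext fun x => by rcases x with x | x <;> rfl
        | succ k ih =>
          refine Equiv.ext fun x => ?_
          rw [pow_succ', Equiv.Perm.mul_apply, ih]
          simp only [pow_succ']
          rcases x with x | x <;> rfl
      have e4 : finRotate 4 ^ 4 = 1 := h4
      have e2 : finRotate 2 ^ 4 = 1 := by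
        have h2' : finRotate 2 ^ 2 = 1 := h2
        rw [show (4 : ℕ) = 2 * 2 from rfl, pow_mul, h2', one_pow]
      have e : (2 : ℕ) ^ 2 = 4 := rfl
      rw [hpow, e]
      simp only [e4, e2]
      rcases x with x | x <;> rfl
    · rintro (x | ⟨i, x⟩)
      · intro e
        have : finRotate 4 x = x := by simpa using e
        rw [← Equiv.Perm.notMem_support, support_finRotate] at this
        exact this (mem_univ x)
      · intro e
        have e' : finRotate 2 x = x := congrArg Prod.snd (Sum.inr.inj e)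
        exact (by decide : ∀ y : Fin 2, finRotate 2 y ≠ y) x e'
  subst hq
  have hsign : Equiv.Perm.sign (finRotate (q + 2)) = (-1) ^ (q + 1) := by
    rw [sign_finRotate]; rfl
  refine ⟨Fin (w + 1) × Fin (q + 2), inferInstance, inferInstance,
    Equiv.prodCongrRight fun _ => finRotate (q + 2), ?_⟩
  have hcard : Fintype.card (Fin (w + 1) × Fin (q + 2)) = (q + 2) * (w + 1) := by
    simp [mul_comm]
  have hp1 : (Equiv.prodCongrRight fun _ : Fin (w + 1) => finRotate (q + 2)) ^ (q + 2) ^ 1 = 1 := by
    rw [pow_one, prodCongrRight_pow, finRotate_pow_self]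
    exact Equiv.ext fun x => rfl
  have ht : Equiv.Perm.sign (Equiv.prodCongrRight fun _ : Fin (w + 1) => finRotate (q + 2)) = 1 := by
    rw [Equiv.Perm.sign_prodCongrRight, prod_const, card_univ, Fintype.card_fin, hsign, ← pow_mul]
    refine Even.neg_one_pow ?_
    rw [Nat.even_mul]
    by_cases h2 : q + 2 = 2
    · exact Or.inr (Nat.even_add_one.2 fun hev => h ⟨h2, hev⟩)
    · obtain ⟨u, hu⟩ := hp.odd_of_ne_two h2
      exact Or.inl ⟨u, by omega⟩
  by_cases h2 : q + 2 = 2
  · refine ⟨Equiv.prodCongrRight fun i => if i = 0 then finRotate (q + 2) else 1, hcard, ht, ?_,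
      Equiv.ext fun x => ?_, ⟨1, hp1⟩, fun x e => hrot x.2 (congrArg Prod.snd e)⟩
    · rw [Equiv.Perm.sign_prodCongrRight, Finset.prod_eq_single (0 : Fin (w + 1))]
      · rw [if_pos rfl, hsign, show q = 0 by omega]
        rfl
      · intro i _ hi; rw [if_neg hi, Equiv.Perm.sign_one]
      · simp
    · rcases x with ⟨i, x⟩
      by_cases hi : i = 0 <;> simp [hi]
  · obtain ⟨u, hu⟩ := hp.odd_of_ne_two h2
    refine ⟨Equiv.prodCongrLeft fun _ => Equiv.swap 0 1, hcard, ht, ?_,
      Equiv.ext fun x => ?_, ⟨1, hp1⟩, fun x e => hrot x.2 (congrArg Prod.snd e)⟩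
    · rw [Equiv.Perm.sign_prodCongrLeft, prod_const, card_univ, Fintype.card_fin,
        Equiv.Perm.sign_swap (by simp [Fin.ext_iff]; omega)]
      exact (show Odd (q + 2) from ⟨u, hu⟩).neg_one_pow
    · rcases x with ⟨i, x⟩
      simp

/-- An even `p`-element moving more than `p * w` points inside `F`, commuting with an odd
permutation of `F`. -/
theorem exists_test_perm {n w : ℕ} (hw : 1 ≤ w) {F : Finset (Fin n)} (hF : p * (w + 1) ≤ F.card) :
    ∃ t c : Equiv.Perm (Fin n), (∀ a, a ∉ F → t a = a ∧ c a = a) ∧ Equiv.Perm.sign t = 1 ∧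
      Equiv.Perm.sign c = -1 ∧ Commute t c ∧ (∃ k, orderOf t = p ^ k) ∧
      p * w < t.support.card := by
  obtain ⟨α, _, _, t, c, hcard, ht, hc, htc, ⟨k, hk⟩, hmov⟩ := exists_test_model (p := p) hw
  obtain ⟨S, hSF, hS⟩ := exists_subset_card_eq hF
  let f : α ≃ {a // a ∈ S} := Fintype.equivOfCardEq (by rw [hcard, Fintype.card_coe, hS])
  refine ⟨t.extendDomain f, c.extendDomain f, fun a ha => ?_, ?_, ?_, ?_, ?_, ?_⟩
  · exact ⟨Equiv.Perm.extendDomain_apply_not_subtype _ f fun h => ha (hSF h),
      Equiv.Perm.extendDomain_apply_not_subtype _ f fun h => ha (hSF h)⟩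
  · rw [Equiv.Perm.sign_extendDomain, ht]
  · rw [Equiv.Perm.sign_extendDomain, hc]
  · rw [Commute, SemiconjBy, Equiv.Perm.extendDomain_mul, Equiv.Perm.extendDomain_mul, htc.eq]
  · have hpow : (t.extendDomain f) ^ p ^ k = 1 := by
      rw [← Equiv.Perm.extendDomainHom_apply f, ← map_pow, hk, map_one]
    obtain ⟨j, -, hj⟩ := (Nat.dvd_prime_pow (Fact.out : p.Prime)).1 (orderOf_dvd_of_pow_eq_one hpow)
    exact ⟨j, hj⟩
  · rw [Equiv.Perm.card_support_extend_domain,
      show t.support = univ from eq_univ_iff_forall.2 fun a => Equiv.Perm.mem_support.2 (hmov a),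
      card_univ, hcard, Nat.mul_succ]
    exact Nat.lt_add_of_pos_right (Fact.out : p.Prime).pos

end Test

theorem factorization_factorial_div {p : ℕ} (hp : p.Prime) (m : ℕ) :
    (Nat.factorial m).factorization p = m / p + (Nat.factorial (m / p)).factorization p := by
  have h : ∀ r, r < p → (Nat.factorial (p * (m / p) + r)).factorization p =
      (Nat.factorial (p * (m / p))).factorization p := by
    intro r
    induction r with
    | zero => intro _; rfl
    | succ r ih =>
      intro hr
      rw [← Nat.add_assoc, Nat.factorial_succ,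
        Nat.factorization_mul (Nat.succ_ne_zero _) (Nat.factorial_ne_zero _), Finsupp.add_apply,
        ih (by omega), Nat.factorization_eq_zero_of_not_dvd, zero_add]
      intro hd
      rw [Nat.succ_eq_add_one, Nat.add_assoc, ← Nat.dvd_add_iff_right (dvd_mul_right p _)] at hd
      exact absurd (Nat.le_of_dvd (Nat.succ_pos r) hd) (by omega)
  conv_lhs => rw [← Nat.div_add_mod m p]
  rw [h _ (Nat.mod_lt _ hp.pos), Nat.factorization_factorial_mul hp, Nat.add_comm]

theorem div_le_of_factorization_le {p : ℕ} {u v : ℕ}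
    (h : v + (Nat.factorial v).factorization p ≤ u + (Nat.factorial u).factorization p) : v ≤ u := by
  by_contra hlt
  push Not at hlt
  have h2 : (Nat.factorial u).factorization p ≤ (Nat.factorial v).factorization p :=
    (Nat.factorization_le_iff_dvd (Nat.factorial_ne_zero u) (Nat.factorial_ne_zero v)).2
      (Nat.factorial_dvd_factorial hlt.le) p
  omega

end CfsgLib.SymBlocks
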